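import Cfsg.Agent.Lib.GTwoTwo.Seven
import Cfsg.Agent.Lib.Cores.PCore
import Cfsg.Agent.S0976

/-!
A group of order 12096 without elements of order 9, 14 and 21 has no soluble normal subgroup.
-/

set_option autoImplicit false
set_option linter.style.haveILetI false
set_option linter.unusedSectionVars false

open CfsgLib.SmallGroups Subgroup

namespace CfsgLib.GTwoTwo

universe u

variable {H : Type u} [Group H] [Finite H]

theorem primes_of_dvd (h : Nat.card H ∣ 12096) :
    ¬ 49 ∣ Nat.card H ∧ ∀ p : ℕ, p.Prime → p ∣ Nat.card H → p = 2 ∨ p = 3 ∨ p = 7 := by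
  refine ⟨fun h49 => by have := h49.trans h; norm_num at this, fun p hp hd => ?_⟩
  have h' : p ∣ 2 ^ 6 * (3 ^ 3 * 7) := by simpa using hd.trans h
  rcases hp.dvd_mul.1 h' with h | h
  · exact Or.inl ((Nat.prime_dvd_prime_iff_eq hp Nat.prime_two).1 (hp.dvd_of_dvd_pow h))
  rcases hp.dvd_mul.1 h with h | h
  · exact Or.inr (Or.inl ((Nat.prime_dvd_prime_iff_eq hp Nat.prime_three).1 (hp.dvd_of_dvd_pow h)))
  · exact Or.inr (Or.inr ((Nat.prime_dvd_prime_iff_eq hp (by norm_num)).1 h))

theorem zpowers_eq_centralizer (hdvd : Nat.card H ∣ 12096) (hno : NoOrders H) {y : H}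
    (hy : orderOf y = 7) : zpowers y = centralizer ({y} : Set H) := by
  obtain ⟨h49, hpr⟩ := primes_of_dvd hdvd
  refine eq_of_le_of_card_ge (zpowers_le.2 (mem_centralizer_singleton_iff.2 rfl)) (le_of_eq ?_)
  rw [Nat.card_zpowers, hy, hno.card_centralizer_seven h49 hpr hy]

/-- An element of order 7 normalising a subgroup of order prime to 7 acts fixed-point-freely. -/
theorem card_modEq_one (hdvd : Nat.card H ∣ 12096) (hno : NoOrders H) {y : H} (hy : orderOf y = 7)
    (R : Subgroup H) (h7 : ¬ 7 ∣ Nat.card R) (hyR : y ∈ normalizer (R : Set H)) :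
    Nat.card R % 7 = 1 := by
  haveI : Fact (Nat.Prime 7) := ⟨by norm_num⟩
  have hle : zpowers y ≤ normalizer (R : Set H) := zpowers_le.2 hyR
  letI : MulAction (zpowers y) R :=
    { smul := fun g r => ⟨(g : H) * r * (g : H)⁻¹, (mem_normalizer_iff.1 (hle g.2) _).1 r.2⟩
      one_smul := fun r => Subtype.ext (by show (1 : H) * r * (1 : H)⁻¹ = r; group)
      mul_smul := fun a b r => Subtype.ext (by
        show ((a : H) * b) * r * ((a : H) * b)⁻¹ = a * (b * r * (b : H)⁻¹) * (a : H)⁻¹; group) }
  have hp : IsPGroup 7 (zpowers y) := IsPGroup.of_card (n := 1) (by rw [Nat.card_zpowers, hy, pow_one])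
  have hfix : MulAction.fixedPoints (zpowers y) R = {1} := by
    ext r
    simp only [MulAction.mem_fixedPoints, Set.mem_singleton_iff]
    refine ⟨fun h => ?_, fun h g => ?_⟩
    · have h1 : y * (r : H) * y⁻¹ = r := congrArg Subtype.val (h ⟨y, mem_zpowers y⟩)
      have hr : (r : H) ∈ zpowers y := by
        rw [zpowers_eq_centralizer hdvd hno hy]
        exact mem_centralizer_singleton_iff.2 (mul_inv_eq_iff_eq_mul.1 h1).symm
      by_contra hr1
      have h7' : orderOf (r : H) ∣ 7 := by
        have h := Subgroup.orderOf_dvd_natCard _ hr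
        rwa [Nat.card_zpowers, hy] at h
      rw [Subgroup.orderOf_coe, Nat.dvd_prime (by norm_num : Nat.Prime 7)] at h7'
      rcases h7' with h' | h'
      · exact hr1 (orderOf_eq_one_iff.1 h')
      · exact h7 (h' ▸ orderOf_dvd_natCard r)
    · subst h
      exact Subtype.ext (by show (g : H) * 1 * (g : H)⁻¹ = 1; group)
  have h := hp.card_modEq_card_fixedPoints R
  rw [hfix, Nat.card_coe_set_eq, Set.ncard_singleton] at h
  exact h

theorem exists_seven (h7 : 7 ∣ Nat.card H) : ∃ y : H, orderOf y = 7 :=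
  haveI : Fact (Nat.Prime 7) := ⟨by norm_num⟩
  exists_prime_orderOf_dvd_card' 7 h7

/-- A normal subgroup of order prime to 7 is a two-group. -/
theorem two_group_of_normal (hdvd : Nat.card H ∣ 12096) (hno : NoOrders H) (h7 : 7 ∣ Nat.card H)
    (K : Subgroup H) [K.Normal] (hK : ¬ 7 ∣ Nat.card K) : IsPGroup 2 K := by
  haveI : Fact (Nat.Prime 3) := ⟨Nat.prime_three⟩
  haveI : Fact (Nat.Prime 2) := ⟨Nat.prime_two⟩
  obtain ⟨R⟩ := (inferInstance : Nonempty (Sylow 3 K))
  set R' := (R : Subgroup K).map K.subtype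
  have hsup := Sylow.normalizer_sup_eq_top R
  have hidx : K.relIndex (normalizer (R' : Set H)) = K.index := by
    rw [← relIndex_sup_right (K := K), hsup, relIndex_top_right]
  have h7i : 7 ∣ K.index := by
    rw [← K.card_mul_index] at h7
    exact ((by norm_num : Nat.Prime 7).dvd_mul.1 h7).resolve_left hK
  have h7N : 7 ∣ Nat.card ↥(normalizer (R' : Set H)) := by
    rw [← hidx] at h7i
    exact h7i.trans (Subgroup.index_dvd_card _)
  obtain ⟨⟨y, hyN⟩, hy⟩ := exists_seven h7N
  rw [Subgroup.orderOf_mk] at hy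
  obtain ⟨k, hk⟩ := R.isPGroup'.exists_card_eq
  have hR' : Nat.card R' = 3 ^ k := by rw [← hk]; exact card_map_of_injective K.subtype_injective
  have hk3 : k ≤ 3 := by
    have h : 3 ^ k ∣ 12096 := hR' ▸ (Subgroup.card_subgroup_dvd_card R').trans hdvd
    by_contra hgt
    have := (pow_dvd_pow 3 (show 4 ≤ k by omega)).trans h
    norm_num at this
  have h7R : ¬ 7 ∣ Nat.card R' := fun h => by
    rw [hR'] at h
    have := (by norm_num : Nat.Prime 7).dvd_of_dvd_pow h
    norm_num at this
  have hmod := card_modEq_one hdvd hno hy R' h7R hyN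
  rw [hR'] at hmod
  obtain rfl : k = 0 := by interval_cases k <;> omega
  refine IsPGroup.iff_card.2 ?_
  obtain ⟨-, hpr⟩ := primes_of_dvd hdvd
  refine ⟨_, Nat.eq_prime_pow_of_unique_prime_dvd Nat.card_pos.ne' fun {d} hd hdK => ?_⟩
  rcases hpr d hd (hdK.trans (Subgroup.card_subgroup_dvd_card K)) with rfl | rfl | rfl
  · rfl
  · exfalso
    have := R.dvd_card_of_dvd_card hdK
    rw [hk] at this
    norm_num at this
  · exact absurd hdK hK

variable {G : Type u} [Group G] [Finite G] (hcard : Nat.card G = 12096) (hno : NoOrders G)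
include hcard hno

theorem sylow_seven [Fact (Nat.Prime 7)] (P : Sylow 7 G) :
    Nat.card ↥(P : Subgroup G) = 7 ∧ Nat.card ↥(normalizer ((P : Subgroup G) : Set G)) = 42 := by
  have hP : Nat.card ↥(P : Subgroup G) = 7 :=
    card_sylow_eq (p := 7) (a := 1) (m := 1728) (by rw [hcard]; norm_num) (by norm_num) P
  obtain ⟨h49, hpr⟩ := primes_of_dvd (dvd_of_eq hcard)
  have hCP := hno.centralizer_sylow h49 hpr P hP
  refine ⟨hP, ?_⟩
  have hrel : Nat.card ↥(normalizer ((P : Subgroup G) : Set G)) ∣ 42 := by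
    have hd : (centralizer ((P : Subgroup G) : Set G)).relIndex (normalizer ((P : Subgroup G) : Set G)) ∣ 6 :=
      relIndex_centralizer_dvd_pred (p := 7) _ hP
    rw [hCP, relIndex] at hd
    have h := card_mul_index ((P : Subgroup G).subgroupOf (normalizer ((P : Subgroup G) : Set G)))
    rw [Nat.card_congr (subgroupOfEquivOfLe le_normalizer).toEquiv, hP] at h
    rw [← h]
    exact mul_dvd_mul_left 7 hd
  have hmod := card_sylow_modEq_one 7 G
  have hmul := card_sylow_mul_card_normalizer P
  rw [hcard] at hmul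
  have hmem : Nat.card ↥(normalizer ((P : Subgroup G) : Set G)) ∈ Nat.divisors 42 :=
    Nat.mem_divisors.2 ⟨hrel, by norm_num⟩
  rw [show Nat.divisors 42 = {1, 2, 3, 6, 7, 14, 21, 42} by decide +kernel] at hmem
  simp only [Finset.mem_insert, Finset.mem_singleton] at hmem
  unfold Nat.ModEq at hmod
  rcases hmem with h | h | h | h | h | h | h | h <;> rw [h] at hmul ⊢ <;> omega

theorem seven_dvd_of_normal (K : Subgroup G) [K.Normal] (hK : K ≠ ⊥) : 7 ∣ Nat.card K := by
  classical
  haveI : Fact (Nat.Prime 7) := ⟨by norm_num⟩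
  have key : ∀ L : Subgroup G, L.Normal → ¬ 7 ∣ Nat.card L → Nat.card L = 1 ∨ Nat.card L = 8 := by
    intro L hL h7L
    obtain ⟨a, ha⟩ := (two_group_of_normal (dvd_of_eq hcard) hno (by rw [hcard]; norm_num) L h7L).exists_card_eq
    obtain ⟨P⟩ := (inferInstance : Nonempty (Sylow 7 G))
    obtain ⟨hP, hN⟩ := sylow_seven hcard hno P
    obtain ⟨⟨y, hyP⟩, hy⟩ := exists_seven (H := (P : Subgroup G)) (dvd_of_eq hP.symm)
    rw [Subgroup.orderOf_mk] at hy
    have hyL : y ∈ normalizer (L : Set G) := by rw [normalizer_eq_top_iff.2 hL]; exact mem_top y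
    have hmod := card_modEq_one (dvd_of_eq hcard) hno hy L h7L hyL
    have ha6 : a ≤ 6 := by
      have h : 2 ^ a ∣ 12096 := ha ▸ hcard ▸ Subgroup.card_subgroup_dvd_card L
      by_contra hgt
      have := (pow_dvd_pow 2 (show 7 ≤ a by omega)).trans h
      norm_num at this
    rw [ha] at hmod ⊢
    by_cases ha6' : a = 6
    · exfalso
      subst ha6'
      have hbot : L ⊓ normalizer ((P : Subgroup G) : Set G) = ⊥ := by
        rw [eq_bot_iff]
        rintro k ⟨hkL, hkN⟩
        have hzy : zpowers y = (P : Subgroup G) :=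
          eq_of_le_of_card_ge (zpowers_le.2 hyP) (by rw [hP, Nat.card_zpowers, hy])
        have hd : Disjoint L (P : Subgroup G) :=
          disjoint_iff.2 (inf_eq_bot_of_coprime (by rw [ha, hP]; norm_num))
        have hc1 : k * y * k⁻¹ * y⁻¹ ∈ (P : Subgroup G) :=
          mul_mem ((mem_normalizer_iff.1 hkN y).1 hyP) (inv_mem hyP)
        have hc2 : k * y * k⁻¹ * y⁻¹ ∈ L := by
          rw [mul_assoc, mul_assoc, ← mul_assoc y]
          exact mul_mem hkL (hL.conj_mem _ (inv_mem hkL) y)
        have hc : k * y * k⁻¹ * y⁻¹ = 1 := disjoint_def.1 hd hc2 hc1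
        have hkC : k ∈ centralizer ({y} : Set G) :=
          mem_centralizer_singleton_iff.2 (mul_inv_eq_iff_eq_mul.1 (mul_inv_eq_one.1 hc))
        rw [← zpowers_eq_centralizer (dvd_of_eq hcard) hno hy, hzy] at hkC
        exact mem_bot.2 (disjoint_def.1 hd hkL hkC)
      have hidx : L.index = 189 := by
        have h := L.card_mul_index
        rw [ha, hcard] at h
        omega
      have h := relIndex_dvd_index_of_normal L (normalizer ((P : Subgroup G) : Set G))
      rw [← inf_relIndex_right, hbot, relIndex_bot_left, hN, hidx] at h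
      norm_num at h
    · interval_cases a <;> omega
  by_contra h7
  rcases key K inferInstance h7 with h | h
  · exact hK (card_eq_one.1 h)
  have hC7 : ¬ 7 ∣ Nat.card ↥(centralizer (K : Set G)) := fun hd => by
    obtain ⟨⟨z, hzC⟩, hz⟩ := exists_seven hd
    rw [Subgroup.orderOf_mk] at hz
    have hle : K ≤ zpowers z := by
      rw [zpowers_eq_centralizer (dvd_of_eq hcard) hno hz]
      exact fun k hk => mem_centralizer_singleton_iff.2 (mem_centralizer_iff.1 hzC k hk)
    have := card_dvd_of_le hle
    rw [h, Nat.card_zpowers, hz] at this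
    norm_num at this
  have hCn : (centralizer (K : Set G)).Normal := inferInstance
  have h27 : 27 ∣ (centralizer (K : Set G)).index := by
    have hmul := (centralizer (K : Set G)).card_mul_index
    rcases key _ hCn hC7 with h' | h' <;> rw [h', hcard] at hmul <;> omega
  let f : G →* Equiv.Perm K := MulAut.toPerm K |>.comp (MulAut.conjNormal (H := K))
  have hker : f.ker = centralizer (K : Set G) := by
    ext g
    simp only [MonoidHom.mem_ker, mem_centralizer_iff, SetLike.mem_coe]
    refine ⟨fun hg k hk => ?_, fun hg => Equiv.ext fun k => Subtype.ext ?_⟩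
    · have := congrArg (fun e => ((e ⟨k, hk⟩ : K) : G)) hg
      exact (mul_inv_eq_iff_eq_mul.1 (show g * k * g⁻¹ = k from this)).symm
    · show g * (k : G) * g⁻¹ = k
      rw [← hg k k.2, mul_inv_cancel_right]
  have hd : (centralizer (K : Set G)).index ∣ Nat.card (Equiv.Perm K) := by
    rw [← hker, index_ker]
    exact Subgroup.card_subgroup_dvd_card _
  rw [Nat.card_perm, h] at hd
  have := h27.trans hd
  norm_num [Nat.factorial] at this

/-- The subgroup generated by the elements of order 7 is simple of order 6048, or everything is simple. -/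
theorem simple_or_exists : IsSimpleGroup G ∨
    ∃ M : Subgroup G, M.Normal ∧ IsSimpleGroup M ∧ Nat.card M = 6048 ∧ centralizer (M : Set G) = ⊥ := by
  classical
  haveI h7f : Fact (Nat.Prime 7) := ⟨by norm_num⟩
  haveI : Fact (Nat.Prime 2) := ⟨Nat.prime_two⟩
  set M := Subgroup.closure {g : G | orderOf g = 7} with hMdef
  haveI hMn : M.Normal := normalizer_eq_top_iff.1 <| eq_top_iff.2 fun c _ => by
    refine mem_normalizer_iff_map_conj_eq.2 ?_
    rw [hMdef, MonoidHom.map_closure]
    congr 1
    ext w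
    refine ⟨?_, fun hw => ⟨c⁻¹ * w * c, ?_, ?_⟩⟩
    · rintro ⟨x, hx, rfl⟩
      show orderOf (c * x * c⁻¹) = 7
      rw [CfsgLib.Involutions.orderOf_conj]
      exact hx
    · show orderOf (c⁻¹ * w * c) = 7
      have e : c⁻¹ * w * c = c⁻¹ * w * c⁻¹⁻¹ := by rw [inv_inv]
      rw [e, CfsgLib.Involutions.orderOf_conj]
      exact hw
    · show c * (c⁻¹ * w * c) * c⁻¹ = w
      group
  obtain ⟨P⟩ := (inferInstance : Nonempty (Sylow 7 G))
  obtain ⟨hP, hN⟩ := sylow_seven hcard hno P
  have hPM : (P : Subgroup G) ≤ M := fun x hx => by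
    by_cases hx1 : x = 1
    · exact hx1 ▸ one_mem _
    refine Subgroup.subset_closure (show orderOf x = 7 from ?_)
    have hd : orderOf x ∣ 7 := hP ▸ Subgroup.orderOf_dvd_natCard _ hx
    exact ((Nat.dvd_prime (by norm_num)).1 hd).resolve_left (fun h => hx1 (orderOf_eq_one_iff.1 h))
  have hidx : M.index ∣ 6 := by
    have h : normalizer ((P : Subgroup G) : Set G) ⊔ M = ⊤ := Sylow.normalizer_sup_eq_top' P hPM
    have e : M.relIndex (normalizer ((P : Subgroup G) : Set G)) = M.index := by
      rw [← relIndex_sup_right, h, relIndex_top_right]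
    have hd : M.index ∣ 42 := by rw [← e, ← hN]; exact Subgroup.index_dvd_card _
    refine Nat.Coprime.dvd_of_dvd_mul_left ?_ (show M.index ∣ 7 * 6 by simpa using hd)
    refine (Nat.Prime.coprime_iff_not_dvd (by norm_num)).2 (fun h7 => ?_) |>.symm
    have h1 : 7 ∣ Nat.card M := hP ▸ card_dvd_of_le hPM
    have := mul_dvd_mul h1 h7
    rw [M.card_mul_index, hcard] at this
    norm_num at this
  have hMdvd : Nat.card M ∣ 12096 := hcard ▸ Subgroup.card_subgroup_dvd_card M
  have h7M : 7 ∣ Nat.card M := hP ▸ card_dvd_of_le hPM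
  have hnoM := hno.subgroup M
  -- simplicity
  have hnt : Nontrivial M := by
    rw [← Finite.one_lt_card_iff_nontrivial]
    exact lt_of_lt_of_le (by norm_num) (Nat.le_of_dvd Nat.card_pos h7M)
  have hsimple : IsSimpleGroup M := by
    refine ⟨fun R hR => ?_⟩
    by_cases h7R : 7 ∣ Nat.card R
    · right
      obtain ⟨⟨z, hzR⟩, hz⟩ := exists_seven h7R
      rw [Subgroup.orderOf_mk] at hz
      have hall : ∀ g : M, orderOf g = 7 → g ∈ R := by
        intro g hg
        have hM7 : ∀ w : M, orderOf w = 7 → ∃ Q : Sylow 7 M, (Q : Subgroup M) = zpowers w := fun w hw => by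
          obtain ⟨Q, hQ⟩ := (IsPGroup.of_card (n := 1)
            (by rw [Nat.card_zpowers, hw, pow_one]) : IsPGroup 7 (zpowers w)).exists_le_sylow
          refine ⟨Q, (eq_of_le_of_card_ge hQ ?_).symm⟩
          obtain ⟨k, hk⟩ := Q.isPGroup'.exists_card_eq
          have hk1 : k ≤ 1 := by
            by_contra hgt
            have h49 := (pow_dvd_pow 7 (show 2 ≤ k by omega)).trans
              (hk ▸ Subgroup.card_subgroup_dvd_card (Q : Subgroup M))
            exact (primes_of_dvd hMdvd).1 (by simpa using h49)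
          rw [Nat.card_zpowers, hw, hk]
          exact (Nat.pow_le_pow_right (by norm_num) hk1).trans (by norm_num)
        obtain ⟨Qz, hQz⟩ := hM7 z hz
        obtain ⟨Qg, hQg⟩ := hM7 g hg
        obtain ⟨c, rfl⟩ := MulAction.exists_smul_eq M Qz Qg
        have : g ∈ (Qz : Subgroup M).map (MulAut.conj c).toMonoidHom := by
          have h := mem_zpowers g
          rw [← hQg] at h
          exact h
        obtain ⟨x, hx, rfl⟩ := this
        rw [hQz] at hx
        exact hR.conj_mem x (zpowers_le.2 hzR hx) c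
      have hle : M ≤ R.map M.subtype :=
        (closure_le _).2 fun g hg =>
          ⟨⟨g, Subgroup.subset_closure hg⟩, hall _ ((Subgroup.orderOf_mk g _).trans hg), rfl⟩
      refine eq_top_iff.2 fun x _ => ?_
      obtain ⟨r, hr, he⟩ := mem_map.1 (hle x.2)
      exact M.subtype_injective he ▸ hr
    · left
      have h2 := two_group_of_normal hMdvd hnoM h7M R h7R
      have hle := CfsgLib.Cores.le_pCore h2
      by_contra hne
      have hO : (Cfsg.pCore 2 M).map M.subtype ≠ ⊥ := by
        rw [Ne, map_eq_bot_iff_of_injective _ M.subtype_injective]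
        exact fun h => hne (le_bot_iff.1 (h ▸ hle))
      have hd := seven_dvd_of_normal hcard hno ((Cfsg.pCore 2 M).map M.subtype) hO
      rw [card_map_of_injective M.subtype_injective] at hd
      obtain ⟨k, hk⟩ := (CfsgLib.Cores.isPGroup_pCore 2 M).exists_card_eq
      rw [hk] at hd
      have := (by norm_num : Nat.Prime 7).dvd_of_dvd_pow hd
      norm_num at this
  have hmul := M.card_mul_index
  rw [hcard] at hmul
  have hcases : M.index = 1 ∨ M.index = 2 ∨ M.index = 3 ∨ M.index = 6 := by
    have h := Nat.mem_divisors.2 ⟨hidx, (by norm_num : (6 : ℕ) ≠ 0)⟩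
    rw [show Nat.divisors 6 = {1, 2, 3, 6} by decide +kernel] at h
    simpa using h
  rcases hcases with h | h | h | h <;> rw [h] at hmul
  · left
    haveI := hsimple
    rw [index_eq_one] at h
    exact ((MulEquiv.subgroupCongr h).trans Subgroup.topEquiv).symm.isSimpleGroup
  · refine Or.inr ⟨M, hMn, hsimple, by omega, ?_⟩
    by_contra hne
    have h7C := seven_dvd_of_normal hcard hno _ hne
    obtain ⟨⟨z, hzC⟩, hz⟩ := exists_seven h7C
    rw [Subgroup.orderOf_mk] at hz
    have hle : M ≤ centralizer ({z} : Set G) := fun m hm =>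
      mem_centralizer_singleton_iff.2 (mem_centralizer_iff.1 hzC m hm)
    have := card_dvd_of_le hle
    obtain ⟨h49, hpr⟩ := primes_of_dvd (dvd_of_eq hcard)
    rw [hno.card_centralizer_seven h49 hpr hz] at this
    have := Nat.le_of_dvd (by norm_num) this
    omega
  · exact (@Cfsg.Agent.S0976.result M _ _ hsimple (by omega)).elim
  · exfalso
    haveI := hsimple
    obtain ⟨Q⟩ := (inferInstance : Nonempty (Sylow 7 M))
    have hM : Nat.card M = 7 * 288 := by omega
    have hQ : Nat.card ↥(Q : Subgroup M) = 7 :=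
      card_sylow_eq (p := 7) (a := 1) (m := 288) (by rw [hM]; norm_num) (by norm_num) Q
    obtain ⟨h49, hpr⟩ := primes_of_dvd hMdvd
    have hCQ := hnoM.centralizer_sylow h49 hpr Q hQ
    refine not_normalizer_le_centralizer (not_isMulCommutative_of_card_eq hM (by norm_num))
      (p := 7) (hM ▸ dvd_mul_right 7 288) Q ?_
    rw [hCQ]
    refine (eq_of_le_of_card_ge le_normalizer (le_of_eq ?_)).ge
    have hn := card_sylow_mul_card_normalizer Q
    rw [hM] at hn
    have hmod := card_sylow_modEq_one 7 M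
    unfold Nat.ModEq at hmod
    have hd : Nat.card ↥(normalizer ((Q : Subgroup M) : Set M)) ∣ 42 := by
      have hd : (centralizer ((Q : Subgroup M) : Set M)).relIndex (normalizer ((Q : Subgroup M) : Set M)) ∣ 6 :=
        relIndex_centralizer_dvd_pred (p := 7) _ hQ
      rw [hCQ, relIndex] at hd
      have h := card_mul_index ((Q : Subgroup M).subgroupOf (normalizer ((Q : Subgroup M) : Set M)))
      rw [Nat.card_congr (subgroupOfEquivOfLe le_normalizer).toEquiv, hQ] at h
      rw [← h]
      exact mul_dvd_mul_left 7 hd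
    have hmem := Nat.mem_divisors.2 ⟨hd, (by norm_num : (42 : ℕ) ≠ 0)⟩
    rw [show Nat.divisors 42 = {1, 2, 3, 6, 7, 14, 21, 42} by decide +kernel] at hmem
    simp only [Finset.mem_insert, Finset.mem_singleton] at hmem
    rw [hQ]
    rcases hmem with e | e | e | e | e | e | e | e <;> rw [e] at hn ⊢ <;> omega

end CfsgLib.GTwoTwo
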