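import Cfsg.Agent.Lib.GTwoTwo.Trivial
import Cfsg.Agent.Lib.GTwoTwo.Adapted
import Cfsg.Agent.Lib.GTwoTwo.Radical

/-!
The action on the twenty-eight Sylow 3-subgroups of a group of order 12096 without elements of order 9, 14 and 21
with a simple subgroup of index two, in adapted coordinates.
-/

set_option autoImplicit false
set_option linter.style.haveILetI false
set_option linter.unusedSectionVars false

open Subgroup MulAction CfsgLib.SmallGroups

namespace CfsgLib.GTwoTwo

universe u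

open CfsgLib.GTwoTwo.Data (hm hap)

/-- The data of the action: a stabiliser in standard form and an involution exchanging two points. -/
structure Model (G : Type u) [Group G] where
  act : G →* Equiv.Perm (Fin 28)
  inj : Function.Injective act
  trans : ∀ a < 27, ∃ g : G, ∀ x : Fin 28, ((act g x : Fin 28) : ℕ) = Data.lt a x
  aut : ∀ k < 16, ∃ g : G, ∀ x : Fin 28, ((act g x : Fin 28) : ℕ) = hap k x
  stab : ∀ g : G, ((act g 27 : Fin 28) : ℕ) = 27 → ((act g 0 : Fin 28) : ℕ) = 0 →
    ∃ k < 16, ∀ x : Fin 28, ((act g x : Fin 28) : ℕ) = hap k x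
  swap : ∃ t : G, act t 27 = 0 ∧ act t 0 = 27 ∧ ∀ x : Fin 28, act t (act t x) = x

section

variable {G : Type u} [Group G] [Finite G] (hcard : Nat.card G = 12096) (hno : NoOrders G)
  (M : Subgroup G) [M.Normal] (hsim : IsSimpleGroup M) (hM : Nat.card M = 6048)
  (hC : centralizer (M : Set G) = ⊥) [Fact (Nat.Prime 3)]
include hcard hno hsim hM

theorem sylow_le (S : Sylow 3 G) : (S : Subgroup G) ≤ M := by
  intro s hs
  have h2 : M.index = 2 := by
    have h := M.card_mul_index
    rw [hM, hcard] at h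
    omega
  obtain ⟨k, hk⟩ := S.isPGroup' ⟨s, hs⟩
  have h3 : s ^ 3 = 1 := hno.three_elements (k := k) (by simpa using congrArg Subtype.val hk)
  have hsq : s * s ∈ M := Subgroup.mul_self_mem_of_index_two h2 s
  have h := mul_mem hsq hsq
  rwa [show s * s * (s * s) = s ^ 3 * s by simp only [pow_succ, pow_zero, one_mul, mul_assoc], h3, one_mul] at h

theorem card_sylow_three' (S : Sylow 3 G) : Nat.card ↥(S : Subgroup G) = 27 :=
  (card_sylow_eq (p := 3) (a := 3) (m := 448) (by rw [hcard]; norm_num) (by norm_num) S).trans (by norm_num)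

theorem exp_three (S : Sylow 3 G) {s : G} (hs : s ∈ (S : Subgroup G)) : s ^ 3 = 1 := by
  obtain ⟨k, hk⟩ := S.isPGroup' ⟨s, hs⟩
  exact hno.three_elements (k := k) (by simpa using congrArg Subtype.val hk)

theorem sylow_facts : Nat.card (Sylow 3 G) = 28 ∧
    (∀ P R : Sylow 3 G, P ≠ R → (P : Subgroup G) ⊓ (R : Subgroup G) = ⊥) ∧
    ∀ S : Sylow 3 G, ∃ a b : ↥(S : Subgroup G), a * b ≠ b * a := by
  classical
  haveI := Fintype.ofFinite G
  haveI := Fintype.ofFinite M
  haveI := hsim
  obtain ⟨ch⟩ := smallChars_nonempty hM (hno.subgroup M)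
  have hle := sylow_le hcard hno M hsim hM
  let r : Sylow 3 G → Sylow 3 M := fun S => S.subtype (hle S)
  have hr : Function.Injective r := fun _ _ h => Sylow.subtype_injective h
  have hlift : ∀ T : Sylow 3 M, ∃ S : Sylow 3 G, r S = T := by
    intro T
    have hT : IsPGroup 3 ↥((T : Subgroup M).map M.subtype) := T.isPGroup'.map _
    obtain ⟨S, hS⟩ := hT.exists_le_sylow
    refine ⟨S, Sylow.ext ?_⟩
    have hle' : (T : Subgroup M) ≤ (r S : Subgroup M) := fun x hx => hS ⟨x, hx, rfl⟩
    exact (T.3 (r S).isPGroup' hle')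
  refine ⟨?_, fun P R h => ?_, fun S => ?_⟩
  · obtain ⟨T⟩ := (inferInstance : Nonempty (Sylow 3 M))
    rw [Nat.card_congr (Equiv.ofBijective r ⟨hr, hlift⟩)]
    exact (card_normalizer_three hM (hno.subgroup M) ch T).2
  · have h' := inter_eq_bot hM (hno.subgroup M) ch (fun e => h (hr e))
    rw [eq_bot_iff] at h' ⊢
    intro x hx
    have := h' (show (⟨x, hle P hx.1⟩ : M) ∈ (r P : Subgroup M) ⊓ (r R : Subgroup M) from ⟨hx.1, hx.2⟩)
    exact mem_bot.2 (congrArg Subtype.val (mem_bot.1 this))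
  · obtain ⟨a, b, hab⟩ := sylow_noncomm hM (hno.subgroup M) ch (r S)
    refine ⟨⟨((a : M) : G), a.2⟩, ⟨((b : M) : G), b.2⟩, fun h => hab ?_⟩
    exact Subtype.ext (Subtype.ext (congrArg Subtype.val h : ((a : M) : G) * (b : M) = (b : M) * (a : M)))

include hC

theorem eq_one_of_fixes_all {g : G} (h : ∀ R : Sylow 3 G, g • R = R) : g = 1 := by
  classical
  haveI := Fintype.ofFinite G
  obtain ⟨h28, -, -⟩ := sylow_facts hcard hno M hsim hM
  haveI := hsim
  set K := (toPermHom G (Sylow 3 G)).ker with hK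
  have hgK : g ∈ K := MonoidHom.mem_ker.2 (Equiv.ext h)
  obtain ⟨S⟩ := (inferInstance : Nonempty (Sylow 3 G))
  have hKN : K ≤ normalizer ((S : Subgroup G) : Set G) := fun k hk =>
    Sylow.smul_eq_iff_mem_normalizer.1 (congrFun (congrArg DFunLike.coe (MonoidHom.mem_ker.1 hk)) S)
  have hbot : K ⊓ M = ⊥ := by
    have hn : (K.subgroupOf M).Normal := inferInstance
    rcases hn.eq_bot_or_eq_top with hb | ht
    · rw [eq_bot_iff]
      intro x hx
      have : (⟨x, hx.2⟩ : M) ∈ K.subgroupOf M := hx.1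
      rw [hb, mem_bot] at this
      exact mem_bot.2 (congrArg Subtype.val this)
    · exfalso
      have hle : M ≤ normalizer ((S : Subgroup G) : Set G) := (subgroupOf_eq_top.1 ht).trans hKN
      have hmul := card_sylow_mul_card_normalizer S
      rw [h28, hcard] at hmul
      have := Nat.le_of_dvd Nat.card_pos (card_dvd_of_le hle)
      rw [hM] at this
      omega
  have hmem : g ∈ centralizer (M : Set G) := mem_centralizer_iff.2 fun m hm =>
    (Subgroup.commute_of_normal_of_disjoint K M inferInstance inferInstance (disjoint_iff.2 hbot) g m hgK hm).symm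
  rwa [hC, mem_bot] at hmem

theorem exists_model : Nonempty (Model G) := by
  classical
  haveI : Fact (Nat.Prime 2) := ⟨Nat.prime_two⟩
  obtain ⟨h28, hinter, hnc⟩ := sylow_facts hcard hno M hsim hM
  have hfix : ∀ {g : G}, (∀ R : Sylow 3 G, g • R = R) → g = 1 := fun h =>
    eq_one_of_fixes_all hcard hno M hsim hM hC h
  have hS27 := card_sylow_three' hcard hno M hsim hM
  have hexp := fun (S : Sylow 3 G) {s : G} (hs : s ∈ (S : Subgroup G)) => exp_three hcard hno M hsim hM S hs
  obtain ⟨S⟩ := (inferInstance : Nonempty (Sylow 3 G))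
  haveI : Fintype (Sylow 3 G) := Fintype.ofFinite _
  obtain ⟨R0, hR0⟩ : ∃ R : Sylow 3 G, R ≠ S := by
    by_contra h
    push Not at h
    have : Subsingleton (Sylow 3 G) := ⟨fun a b => (h a).trans (h b).symm⟩
    have := Nat.card_of_subsingleton (α := Sylow 3 G) S
    omega
  have hfixS : ∀ s ∈ (S : Subgroup G), s • S = S := fun s hs =>
    Sylow.smul_eq_iff_mem_normalizer.2 (le_normalizer hs)
  -- the regular action of `S`
  have hfree : ∀ R : Sylow 3 G, R ≠ S → ∀ s ∈ (S : Subgroup G), s • R = R → s = 1 := by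
    intro R hR s hs hsR
    have hp : IsPGroup 3 (zpowers s) := S.isPGroup'.to_le (zpowers_le.2 hs)
    have hsR' : s ∈ (R : Subgroup G) :=
      ((IsPGroup.inf_normalizer_sylow hp R).le ⟨mem_zpowers s, Sylow.smul_eq_iff_mem_normalizer.1 hsR⟩).2
    have h : s ∈ (S : Subgroup G) ⊓ (R : Subgroup G) := ⟨hs, hsR'⟩
    rw [hinter S R (Ne.symm hR), mem_bot] at h
    exact h
  have hreg : ∀ R : Sylow 3 G, R ≠ S → ∀ Q : Sylow 3 G, Q ≠ S → ∃ s ∈ (S : Subgroup G), s • R = Q := by
    intro R hR
    let o : ↥(S : Subgroup G) → {Q : Sylow 3 G // Q ≠ S} := fun s =>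
      ⟨(s : G) • R, fun h => hR (MulAction.injective (s : G) (h.trans (hfixS s s.2).symm))⟩
    have ho : Function.Injective o := by
      intro s s' h
      have h' : (s : G) • R = (s' : G) • R := congrArg Subtype.val h
      refine Subtype.ext (inv_mul_eq_one.1 (hfree R hR _ (mul_mem (inv_mem s.2) s'.2) ?_))
      rw [mul_smul, ← h', inv_smul_smul]
    haveI := Fintype.ofFinite ↥(S : Subgroup G)
    have hbij : Function.Bijective o := by
      rw [Fintype.bijective_iff_injective_and_card]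
      refine ⟨ho, ?_⟩
      rw [← Nat.card_eq_fintype_card, hS27, Fintype.card_subtype_compl, ← Nat.card_eq_fintype_card, h28,
        Fintype.card_subtype_eq]
    intro Q hQ
    obtain ⟨s, hs⟩ := hbij.2 ⟨Q, hQ⟩
    exact ⟨s, s.2, congrArg Subtype.val hs⟩
  -- the two-point stabiliser
  set N := normalizer ((S : Subgroup G) : Set G) with hN
  have hNc : Nat.card N = 432 := by
    have hmul : Nat.card (Sylow 3 G) * Nat.card N = Nat.card G := card_sylow_mul_card_normalizer S
    rw [h28, hcard] at hmul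
    omega
  set H := N ⊓ stabilizer G R0 with hH
  have hH16 : Nat.card H = 16 := by
    have hdec : ∀ n : N, ∃ s : ↥(S : Subgroup G), (s : G)⁻¹ * n ∈ H := by
      intro n
      have hne : (n : G) • R0 ≠ S := fun h => hR0 (MulAction.injective (n : G)
        (h.trans (Sylow.smul_eq_iff_mem_normalizer.2 n.2).symm))
      obtain ⟨s, hs, hsR⟩ := hreg R0 hR0 _ hne
      refine ⟨⟨s, hs⟩, mem_inf.2 ⟨mul_mem (inv_mem (le_normalizer hs)) n.2, ?_⟩⟩
      rw [mem_stabilizer_iff, mul_smul, ← hsR, inv_smul_smul]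
    choose sp hsp using hdec
    let e : ↥(S : Subgroup G) × H → N := fun p =>
      ⟨(p.1 : G) * p.2, mul_mem (le_normalizer p.1.2) p.2.2.1⟩
    have he : Function.Bijective e := by
      refine ⟨fun p q h => ?_, fun n => ⟨(sp n, ⟨_, hsp n⟩), Subtype.ext (mul_inv_cancel_left _ _)⟩⟩
      have h' : (p.1 : G) * p.2 = (q.1 : G) * q.2 := congrArg Subtype.val h
      have hR : (p.1 : G) • R0 = (q.1 : G) • R0 := by
        have := congrArg (· • R0) h'
        simp only [mul_smul, mem_stabilizer_iff.1 p.2.2.2, mem_stabilizer_iff.1 q.2.2.2] at this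
        exact this
      have h1 : p.1 = q.1 := Subtype.ext (inv_mul_eq_one.1 (hfree R0 hR0 _ (mul_mem (inv_mem p.1.2) q.1.2)
        (by rw [mul_smul, ← hR, inv_smul_smul])))
      refine Prod.ext h1 (Subtype.ext ?_)
      rw [h1] at h'
      exact mul_left_cancel h'
    have h := Nat.card_congr (Equiv.ofBijective e he)
    rw [Nat.card_prod, hS27, hNc] at h
    omega
  -- the automorphisms induced
  let ρ : H →* MulAut ↥(S : Subgroup G) := (normalizerMonoidHom (S : Subgroup G)).comp (inclusion inf_le_left)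
  have hρv : ∀ (h : H) (x : ↥(S : Subgroup G)), ((ρ h x : ↥(S : Subgroup G)) : G) = (h : G) * x * (h : G)⁻¹ :=
    fun _ _ => rfl
  have hρ : Function.Injective ρ := by
    rw [← MonoidHom.ker_eq_bot_iff, eq_bot_iff]
    intro h hh
    refine mem_bot.2 (Subtype.ext (hfix fun R => ?_))
    by_cases hR : R = S
    · rw [hR]; exact Sylow.smul_eq_iff_mem_normalizer.2 h.2.1
    obtain ⟨s, hs, hsR⟩ := hreg R0 hR0 R hR
    have hc : (h : G) * s * (h : G)⁻¹ = s := by
      rw [← hρv h ⟨s, hs⟩, MonoidHom.mem_ker.1 hh]; rfl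
    rw [← hsR, ← mul_smul, mul_inv_eq_iff_eq_mul.1 hc, mul_smul, mem_stabilizer_iff.1 h.2.2]
  obtain ⟨a, b, hab⟩ := hnc S
  obtain ⟨c, hk1, hk2⟩ := Heis.exists_adapted (hS27 S) (fun x => Subtype.ext (hexp S x.2)) hab ρ.range
    (by rw [← hH16]; exact (Nat.card_congr (MonoidHom.ofInjective hρ).toEquiv).symm)
  -- the labelling of the points
  let pt : Fin 28 → Sylow 3 G := fun x => if (x : ℕ) < 27 then ((c.f x : ↥(S : Subgroup G)) : G) • R0 else S
  have hptlt : ∀ x : Fin 28, (x : ℕ) < 27 → pt x = ((c.f x : ↥(S : Subgroup G)) : G) • R0 := fun x hx => if_pos hx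
  have hpt27 : pt 27 = S := if_neg (by decide)
  have hpt0 : pt 0 = R0 := by rw [hptlt 0 (by decide), Fin.val_zero, c.zero, OneMemClass.coe_one, one_smul]
  have hne : ∀ x : Fin 28, (x : ℕ) < 27 → pt x ≠ S := fun x hx h => hR0 (by
    rw [hptlt x hx] at h
    exact MulAction.injective _ (h.trans (hfixS _ (c.f x).2).symm))
  have hpt : Function.Bijective pt := by
    have h27' : ∀ x : Fin 28, ¬ (x : ℕ) < 27 → x = 27 := fun x hx => Fin.ext (by
      show (x : ℕ) = 27
      omega)
    refine ⟨fun x y h => ?_, fun Q => ?_⟩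
    · by_cases hx : (x : ℕ) < 27 <;> by_cases hy : (y : ℕ) < 27
      · rw [hptlt x hx, hptlt y hy] at h
        refine Fin.ext (c.inj _ hx _ hy (Subtype.ext (inv_mul_eq_one.1
          (hfree R0 hR0 _ (mul_mem (inv_mem (c.f x).2) (c.f y).2) ?_))))
        rw [mul_smul, ← h, inv_smul_smul]
      · exact absurd (h.trans (if_neg hy)) (hne x hx)
      · exact absurd (h.symm.trans (if_neg hx)) (hne y hy)
      · rw [h27' x hx, h27' y hy]
    · by_cases hQ : Q = S
      · exact ⟨27, hpt27.trans hQ.symm⟩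
      obtain ⟨s, hs, hsR⟩ := hreg R0 hR0 Q hQ
      obtain ⟨p, hp, e⟩ := c.surj ⟨s, hs⟩
      refine ⟨⟨p, by omega⟩, ?_⟩
      rw [hptlt ⟨p, by omega⟩ hp, e]
      exact hsR
  let e := Equiv.ofBijective pt hpt
  let act : G →* Equiv.Perm (Fin 28) :=
    { toFun := fun g => (e.trans (MulAction.toPerm g)).trans e.symm
      map_one' := Equiv.ext fun x => by simp
      map_mul' := fun g g' => Equiv.ext fun x => by
        show e.symm ((g * g') • e x) = e.symm (g • e (e.symm (g' • e x)))
        rw [e.apply_symm_apply, mul_smul] }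
  have hact : ∀ (g : G) (x y : Fin 28), g • pt x = pt y → act g x = y := fun g x y h => by
    show e.symm (g • pt x) = y
    rw [h]
    exact e.symm_apply_apply y
  have hact' : ∀ (g : G) (x : Fin 28), g • pt x = pt (act g x) := fun g x => (e.apply_symm_apply _).symm
  have hauts : ∀ k < 16, ∀ h : H, (∀ x < 27, ρ h (c.f x) = c.f (hap k x)) →
      ∀ x : Fin 28, ((act (h : G) x : Fin 28) : ℕ) = hap k x := by
    intro k hk h hh x
    by_cases hx : (x : ℕ) < 27
    · have hlt := (Data.hap_lt k hk).1 x hx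
      rw [hact (h : G) x ⟨hap k x, by omega⟩ ?_]
      rw [hptlt x hx, hptlt ⟨hap k x, by omega⟩ hlt, ← mul_smul]
      have e' : (h : G) * (c.f x : ↥(S : Subgroup G)) = ((ρ h (c.f x) : ↥(S : Subgroup G)) : G) * h := by
        rw [hρv, inv_mul_cancel_right]
      rw [e', hh x hx, mul_smul, mem_stabilizer_iff.1 h.2.2]
    · have e27 : x = 27 := Fin.ext (by show (x : ℕ) = 27; omega)
      rw [e27, hact (h : G) 27 27 (by rw [hpt27]; exact Sylow.smul_eq_iff_mem_normalizer.2 h.2.1)]
      exact ((Data.hap_lt k hk).2.1).symm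
  refine ⟨{ act := act, inj := ?_, trans := ?_, aut := ?_, stab := ?_, swap := ?_ }⟩
  · rw [← MonoidHom.ker_eq_bot_iff, eq_bot_iff]
    intro g hg
    refine mem_bot.2 (hfix fun R => ?_)
    obtain ⟨x, rfl⟩ := hpt.2 R
    rw [hact' g x, MonoidHom.mem_ker.1 hg]
    rfl
  · intro a ha
    refine ⟨(c.f a : ↥(S : Subgroup G)), fun x => ?_⟩
    by_cases hx : (x : ℕ) < 27
    · have hlt := Data.hm_lt a ha x hx
      rw [hact _ x ⟨hm a x, by omega⟩ ?_]
      · show hm a x = Data.lt a x
        rw [Data.lt, if_pos hx]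
      · rw [hptlt x hx, hptlt ⟨hm a x, by omega⟩ hlt, c.mul a ha x hx, Subgroup.coe_mul, mul_smul]
    · have e27 : x = 27 := Fin.ext (by show (x : ℕ) = 27; omega)
      rw [e27, hact _ 27 27 (by rw [hpt27]; exact hfixS _ (c.f a).2), Data.lt, if_neg (by decide)]
      rfl
  · intro k hk
    obtain ⟨σ, ⟨h, rfl⟩, hσ⟩ := hk1 k hk
    exact ⟨h, hauts k hk h hσ⟩
  · intro g h27 h0
    have h27' : act g 27 = 27 := Fin.ext h27
    have h0' : act g 0 = 0 := Fin.ext h0
    have hgN : g ∈ N := Sylow.smul_eq_iff_mem_normalizer.1 (by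
      have := hact' g 27; rwa [h27', hpt27] at this)
    have hgR : g ∈ stabilizer G R0 := mem_stabilizer_iff.2 (by
      have := hact' g 0; rwa [h0', hpt0] at this)
    obtain ⟨k, hk, hσ⟩ := hk2 (ρ ⟨g, hgN, hgR⟩) ⟨_, rfl⟩
    exact ⟨k, hk, hauts k hk ⟨g, hgN, hgR⟩ hσ⟩
  · -- an involution exchanging the two points
    obtain ⟨t0, ht0⟩ := exists_prime_orderOf_dvd_card' (G := G) 2 (by rw [hcard]; norm_num)
    obtain ⟨P, hP⟩ : ∃ P : Sylow 3 G, t0 • P ≠ P := by
      by_contra h
      push Not at h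
      rw [hfix h, orderOf_one] at ht0
      norm_num at ht0
    obtain ⟨g1, hg1⟩ := exists_smul_eq G P S
    have hne1 : g1 • t0 • P ≠ S := fun h => hP (MulAction.injective g1 (h.trans hg1.symm))
    obtain ⟨s, hs, hsR⟩ := hreg _ hne1 R0 hR0
    set g := s * g1 with hg
    have hgP : g • P = S := by rw [hg, mul_smul, hg1, hfixS s hs]
    have hgQ : g • t0 • P = R0 := by rw [hg, mul_smul]; exact hsR
    set t := g * t0 * g⁻¹ with ht
    have ht2 : t * t = 1 := by
      rw [ht, show g * t0 * g⁻¹ * (g * t0 * g⁻¹) = g * (t0 * t0) * g⁻¹ by group,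
        CfsgLib.Involutions.mul_self_eq_one ht0]
      group
    have htS : t • S = R0 := by rw [ht, ← hgP, ← mul_smul, inv_mul_cancel_right, mul_smul, hgQ]
    have htR : t • R0 = S := by rw [← htS, ← mul_smul, ht2, one_smul]
    refine ⟨t, hact t 27 0 (by rw [hpt27, hpt0, htS]), hact t 0 27 (by rw [hpt27, hpt0, htR]), fun x => ?_⟩
    rw [← Equiv.Perm.mul_apply, ← map_mul, ht2, map_one]
    rfl

end

end CfsgLib.GTwoTwo
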