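import Cfsg.Agent.Lib.GTwoTwo.Principal
import Cfsg.Agent.Lib.GTwoTwo.Radical

/-!
There is no simple group of order 12096 without elements of order 9, 14 and 21.
-/

set_option autoImplicit false
set_option linter.style.haveILetI false

open Cfsg CfsgLib.CharTheory CfsgLib.SmallGroups Subgroup
open scoped ComplexConjugate

namespace CfsgLib.GTwoTwo

universe u

/-- The possible pairs (value at an element of order seven, degree). -/
abbrev keys : Finset (ℤ × ℕ) :=
  {(1, 8), (1, 36), (1, 64), (-1, 27), (-1, 48), (2, 2), (2, 9), (2, 16), (2, 72), (-2, 12), (-2, 54), (-2, 96)}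

theorem keys_complete : ∀ d ∈ List.range 110, d ∣ 12096 → 1 < d → ∀ v ∈ Finset.Icc (-2 : ℤ) 2,
    v ≠ 0 → (7 : ℤ) ∣ (d : ℤ) - v → (v ≠ -1 ∨ d ≠ 6) → (v, d) ∈ keys := by decide +kernel

/-- Tables for the multiplicities. -/
theorem sol0 : ∀ a ∈ List.range 7, ∀ b ∈ List.range 4, ∀ c ∈ List.range 3, ∀ d ∈ List.range 7, ∀ e ∈ List.range 6,
    a + b + c + d + e + 0 = 6 → 1 + 8 * (a : ℤ) + 36 * b + 64 * c - 27 * d - 48 * e + (0) = 0 →
      64 * a + 1296 * b + 4096 * c + 729 * d + 2304 * e + 0 ≤ 12095 →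
    (a = 2 ∧ b = 0 ∧ c = 1 ∧ d = 3 ∧ e = 0) ∨ (a = 1 ∧ b = 2 ∧ c = 0 ∧ d = 3 ∧ e = 0) := by
  decide +kernel
theorem sol1 : ∀ a ∈ List.range 7, ∀ b ∈ List.range 4, ∀ c ∈ List.range 3, ∀ d ∈ List.range 7, ∀ e ∈ List.range 6,
    a + b + c + d + e + 4 = 6 → 1 + 8 * (a : ℤ) + 36 * b + 64 * c - 27 * d - 48 * e + (4) = 0 →
      64 * a + 1296 * b + 4096 * c + 729 * d + 2304 * e + 4 ≤ 12095 →
    False := by
  decide +kernel
theorem sol2 : ∀ a ∈ List.range 7, ∀ b ∈ List.range 4, ∀ c ∈ List.range 3, ∀ d ∈ List.range 7, ∀ e ∈ List.range 6,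
    a + b + c + d + e + 4 = 6 → 1 + 8 * (a : ℤ) + 36 * b + 64 * c - 27 * d - 48 * e + (18) = 0 →
      64 * a + 1296 * b + 4096 * c + 729 * d + 2304 * e + 81 ≤ 12095 →
    (a = 1 ∧ b = 0 ∧ c = 0 ∧ d = 1 ∧ e = 0) := by
  decide +kernel
theorem sol3 : ∀ a ∈ List.range 7, ∀ b ∈ List.range 4, ∀ c ∈ List.range 3, ∀ d ∈ List.range 7, ∀ e ∈ List.range 6,
    a + b + c + d + e + 4 = 6 → 1 + 8 * (a : ℤ) + 36 * b + 64 * c - 27 * d - 48 * e + (32) = 0 →
      64 * a + 1296 * b + 4096 * c + 729 * d + 2304 * e + 256 ≤ 12095 →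
    False := by
  decide +kernel
theorem sol4 : ∀ a ∈ List.range 7, ∀ b ∈ List.range 4, ∀ c ∈ List.range 3, ∀ d ∈ List.range 7, ∀ e ∈ List.range 6,
    a + b + c + d + e + 4 = 6 → 1 + 8 * (a : ℤ) + 36 * b + 64 * c - 27 * d - 48 * e + (144) = 0 →
      64 * a + 1296 * b + 4096 * c + 729 * d + 2304 * e + 5184 ≤ 12095 →
    False := by
  decide +kernel
theorem sol5 : ∀ a ∈ List.range 7, ∀ b ∈ List.range 4, ∀ c ∈ List.range 3, ∀ d ∈ List.range 7, ∀ e ∈ List.range 6,
    a + b + c + d + e + 4 = 6 → 1 + 8 * (a : ℤ) + 36 * b + 64 * c - 27 * d - 48 * e + (-24) = 0 →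
      64 * a + 1296 * b + 4096 * c + 729 * d + 2304 * e + 144 ≤ 12095 →
    False := by
  decide +kernel
theorem sol6 : ∀ a ∈ List.range 7, ∀ b ∈ List.range 4, ∀ c ∈ List.range 3, ∀ d ∈ List.range 7, ∀ e ∈ List.range 6,
    a + b + c + d + e + 4 = 6 → 1 + 8 * (a : ℤ) + 36 * b + 64 * c - 27 * d - 48 * e + (-108) = 0 →
      64 * a + 1296 * b + 4096 * c + 729 * d + 2304 * e + 2916 ≤ 12095 →
    False := by
  decide +kernel
theorem sol7 : ∀ a ∈ List.range 7, ∀ b ∈ List.range 4, ∀ c ∈ List.range 3, ∀ d ∈ List.range 7, ∀ e ∈ List.range 6,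
    a + b + c + d + e + 4 = 6 → 1 + 8 * (a : ℤ) + 36 * b + 64 * c - 27 * d - 48 * e + (-192) = 0 →
      64 * a + 1296 * b + 4096 * c + 729 * d + 2304 * e + 9216 ≤ 12095 →
    False := by
  decide +kernel

theorem sol (a b c d e f g h i j k l : ℕ)
    (L3 : (a : ℤ) + b + c + d + e + 4 * f + 4 * g + 4 * h + 4 * i + 4 * j + 4 * k + 4 * l = 6)
    (L0 : 1 + 8 * (a : ℤ) + 36 * b + 64 * c - 27 * d - 48 * e + 4 * f + 18 * g + 32 * h + 144 * i - 24 * j -
      108 * k - 192 * l = 0)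
    (L4 : 64 * (a : ℤ) + 1296 * b + 4096 * c + 729 * d + 2304 * e + 4 * f + 81 * g + 256 * h + 5184 * i +
      144 * j + 2916 * k + 9216 * l ≤ 12095) :
    (a = 1 ∧ b = 0 ∧ c = 0 ∧ d = 1 ∧ e = 0 ∧ f = 0 ∧ g = 1 ∧ h = 0 ∧ i = 0 ∧ j = 0 ∧ k = 0 ∧ l = 0) ∨
    (a = 2 ∧ b = 0 ∧ c = 1 ∧ d = 3 ∧ e = 0 ∧ f = 0 ∧ g = 0 ∧ h = 0 ∧ i = 0 ∧ j = 0 ∧ k = 0 ∧ l = 0) ∨
    (a = 1 ∧ b = 2 ∧ c = 0 ∧ d = 3 ∧ e = 0 ∧ f = 0 ∧ g = 0 ∧ h = 0 ∧ i = 0 ∧ j = 0 ∧ k = 0 ∧ l = 0) := by
  have ha : a < 7 := by linarith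
  have hd : d < 7 := by linarith
  have hc : c < 3 := by linarith
  have hb : b < 4 := by
    by_contra hb
    push Not at hb
    linarith
  have he : e < 6 := by linarith
  have hz : f + g + h + i + j + k + l ≤ 1 := by
    clear L0 L4
    omega
  by_cases ef : f = 0
  swap
  · obtain rfl : f = 1 := by clear L0 L3 L4; omega
    obtain rfl : g = 0 := by clear L0 L3 L4; omega
    obtain rfl : h = 0 := by clear L0 L3 L4; omega
    obtain rfl : i = 0 := by clear L0 L3 L4; omega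
    obtain rfl : j = 0 := by clear L0 L3 L4; omega
    obtain rfl : k = 0 := by clear L0 L3 L4; omega
    obtain rfl : l = 0 := by clear L0 L3 L4; omega
    subst_vars
    exact (sol1 a (List.mem_range.2 ha) b (List.mem_range.2 hb) c (List.mem_range.2 hc) d (List.mem_range.2 hd) e (List.mem_range.2 he) (by omega) (by omega) (by omega)).elim
  by_cases eg : g = 0
  swap
  · obtain rfl : g = 1 := by clear L0 L3 L4; omega
    obtain rfl : h = 0 := by clear L0 L3 L4; omega
    obtain rfl : i = 0 := by clear L0 L3 L4; omega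
    obtain rfl : j = 0 := by clear L0 L3 L4; omega
    obtain rfl : k = 0 := by clear L0 L3 L4; omega
    obtain rfl : l = 0 := by clear L0 L3 L4; omega
    subst_vars
    obtain ⟨rfl, rfl, rfl, rfl, rfl⟩ := sol2 a (List.mem_range.2 ha) b (List.mem_range.2 hb) c (List.mem_range.2 hc) d (List.mem_range.2 hd) e (List.mem_range.2 he) (by omega) (by omega) (by omega)
    exact Or.inl ⟨rfl, rfl, rfl, rfl, rfl, rfl, rfl, rfl, rfl, rfl, rfl, rfl⟩
  by_cases eh : h = 0
  swap
  · obtain rfl : h = 1 := by clear L0 L3 L4; omega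
    obtain rfl : i = 0 := by clear L0 L3 L4; omega
    obtain rfl : j = 0 := by clear L0 L3 L4; omega
    obtain rfl : k = 0 := by clear L0 L3 L4; omega
    obtain rfl : l = 0 := by clear L0 L3 L4; omega
    subst_vars
    exact (sol3 a (List.mem_range.2 ha) b (List.mem_range.2 hb) c (List.mem_range.2 hc) d (List.mem_range.2 hd) e (List.mem_range.2 he) (by omega) (by omega) (by omega)).elim
  by_cases ei : i = 0
  swap
  · obtain rfl : i = 1 := by clear L0 L3 L4; omega
    obtain rfl : j = 0 := by clear L0 L3 L4; omega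
    obtain rfl : k = 0 := by clear L0 L3 L4; omega
    obtain rfl : l = 0 := by clear L0 L3 L4; omega
    subst_vars
    exact (sol4 a (List.mem_range.2 ha) b (List.mem_range.2 hb) c (List.mem_range.2 hc) d (List.mem_range.2 hd) e (List.mem_range.2 he) (by omega) (by omega) (by omega)).elim
  by_cases ej : j = 0
  swap
  · obtain rfl : j = 1 := by clear L0 L3 L4; omega
    obtain rfl : k = 0 := by clear L0 L3 L4; omega
    obtain rfl : l = 0 := by clear L0 L3 L4; omega
    subst_vars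
    exact (sol5 a (List.mem_range.2 ha) b (List.mem_range.2 hb) c (List.mem_range.2 hc) d (List.mem_range.2 hd) e (List.mem_range.2 he) (by omega) (by omega) (by omega)).elim
  by_cases ek : k = 0
  swap
  · obtain rfl : k = 1 := by clear L0 L3 L4; omega
    obtain rfl : l = 0 := by clear L0 L3 L4; omega
    subst_vars
    exact (sol6 a (List.mem_range.2 ha) b (List.mem_range.2 hb) c (List.mem_range.2 hc) d (List.mem_range.2 hd) e (List.mem_range.2 he) (by omega) (by omega) (by omega)).elim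
  by_cases el : l = 0
  swap
  · obtain rfl : l = 1 := by clear L0 L3 L4; omega
    subst_vars
    exact (sol7 a (List.mem_range.2 ha) b (List.mem_range.2 hb) c (List.mem_range.2 hc) d (List.mem_range.2 hd) e (List.mem_range.2 he) (by omega) (by omega) (by omega)).elim
  subst_vars
  rcases sol0 a (List.mem_range.2 ha) b (List.mem_range.2 hb) c (List.mem_range.2 hc) d (List.mem_range.2 hd) e (List.mem_range.2 he) (by omega) (by omega) (by omega) with ⟨rfl, rfl, rfl, rfl, rfl⟩ | ⟨rfl, rfl, rfl, rfl, rfl⟩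
  · exact Or.inr (Or.inl ⟨rfl, rfl, rfl, rfl, rfl, rfl, rfl, rfl, rfl, rfl, rfl, rfl⟩)
  · exact Or.inr (Or.inr ⟨rfl, rfl, rfl, rfl, rfl, rfl, rfl, rfl, rfl, rfl, rfl, rfl⟩)

section Dihedral

variable {G : Type u} [Group G] [Fintype G]

/-- The subgroup `⟨y⟩ ∪ ⟨y⟩t`. -/
def dihedral (y t : G) (ht : t * t = 1) (hty : t * y * t⁻¹ = y⁻¹) : Subgroup G where
  carrier := {g | g ∈ zpowers y ∨ g * t ∈ zpowers y}
  one_mem' := Or.inl (one_mem _)
  mul_mem' := by
    have hconj : ∀ w ∈ zpowers y, t * w * t ∈ zpowers y := by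
      rintro w ⟨k, rfl⟩
      refine ⟨-k, ?_⟩
      show y ^ (-k) = t * y ^ k * t
      calc y ^ (-k) = (y⁻¹) ^ k := by rw [inv_zpow, zpow_neg]
        _ = (t * y * t⁻¹) ^ k := by rw [hty]
        _ = t * y ^ k * t := by rw [conj_zpow, inv_eq_of_mul_eq_one_right ht]
    rintro a b (ha | ha) (hb | hb)
    · exact Or.inl (mul_mem ha hb)
    · exact Or.inr (by rw [mul_assoc]; exact mul_mem ha hb)
    · refine Or.inr ?_
      have e : a * b * t = a * t * (t * b * t) := by
        simp only [← mul_assoc]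
        rw [mul_assoc a t t, ht, mul_one]
      rw [e]
      exact mul_mem ha (hconj b hb)
    · refine Or.inl ?_
      have e : a * b = a * t * (t * (b * t) * t) := by
        simp only [← mul_assoc]
        rw [mul_assoc a t t, ht, mul_one, mul_assoc (a * b) t t, ht, mul_one]
      rw [e]
      exact mul_mem ha (hconj _ hb)
  inv_mem' := by
    have hconj : ∀ w ∈ zpowers y, t * w * t ∈ zpowers y := by
      rintro w ⟨k, rfl⟩
      refine ⟨-k, ?_⟩
      show y ^ (-k) = t * y ^ k * t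
      calc y ^ (-k) = (y⁻¹) ^ k := by rw [inv_zpow, zpow_neg]
        _ = (t * y * t⁻¹) ^ k := by rw [hty]
        _ = t * y ^ k * t := by rw [conj_zpow, inv_eq_of_mul_eq_one_right ht]
    rintro a (ha | ha)
    · exact Or.inl (inv_mem ha)
    · refine Or.inr ?_
      have e : a⁻¹ * t = t * (a * t)⁻¹ * t := by
        rw [mul_inv_rev, inv_eq_of_mul_eq_one_right ht, ← mul_assoc, ht, one_mul]
      rw [e]
      exact hconj _ (inv_mem ha)

/-- The values at an involution inverting an element of order seven. -/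
theorem dihedral_sums {y t : G} (hy : orderOf y = 7) (ht : t * t = 1) (ht1 : t ≠ 1)
    (hty : t * y * t⁻¹ = y⁻¹) {χ : G → ℂ} (hχ : IsCharacter G χ) {d : ℕ} {v r : ℤ} (hd : χ 1 = d)
    (hv : ∀ w ∈ zpowers y, w ≠ 1 → χ w = v) (hr : χ t = r) (hcl : ∀ a b, IsConj a b → χ a = χ b) :
    (14 : ℤ) ∣ (d : ℤ) + 6 * v + 7 * r ∧ 0 ≤ (d : ℤ) + 6 * v + 7 * r ∧ 0 ≤ (d : ℤ) + 6 * v - 7 * r := by
  classical
  set D := dihedral y t ht hty
  have htn : t ∉ zpowers y := fun h => by
    obtain ⟨k, hk⟩ := h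
    have hy1 : y ^ 2 = 1 := by
      have h1 : t * y * t⁻¹ = y := by rw [← hk]; group
      rw [h1] at hty
      rw [pow_two]; nth_rw 2 [hty]; exact mul_inv_cancel y
    have := orderOf_dvd_of_pow_eq_one hy1
    rw [hy] at this
    norm_num at this
  have hexcl : ∀ g, g ∈ zpowers y → g * t ∈ zpowers y → False := fun g h1 h2 => by
    have := mul_mem (inv_mem h1) h2
    rw [inv_mul_cancel_left] at this
    exact htn this
  let e : D →* ℂˣ :=
    { toFun := fun g => if (g : G) ∈ zpowers y then 1 else -1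
      map_one' := by simp [one_mem]
      map_mul' := fun a b => by
        show (if (a : G) * b ∈ zpowers y then (1 : ℂˣ) else -1) = _
        by_cases ha : (a : G) ∈ zpowers y <;> by_cases hb : (b : G) ∈ zpowers y
        · rw [if_pos (mul_mem ha hb), if_pos ha, if_pos hb, one_mul]
        · rw [if_neg fun h => hb (by simpa using mul_mem (inv_mem ha) h), if_pos ha, if_neg hb, one_mul]
        · rw [if_neg fun h => ha (by simpa using mul_mem h (inv_mem hb)), if_neg ha, if_pos hb, mul_one]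
        · rw [if_pos, if_neg ha, if_neg hb, neg_mul_neg, one_mul]
          rcases (a * b).2 with h | h
          · exact h
          · exfalso
            have h1 := (a.2.resolve_left ha)
            have h2 := (b.2.resolve_left hb)
            -- the product of the three would put `t` in `⟨y⟩`
            obtain ⟨i, hi⟩ := h1
            obtain ⟨j, hj⟩ := h2
            obtain ⟨k, hk⟩ := h
            have ea : (a : G) = y ^ i * t := by
              rw [show y ^ i = a * t from hi, mul_assoc, ht, mul_one]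
            have eb : (b : G) = y ^ j * t := by
              rw [show y ^ j = b * t from hj, mul_assoc, ht, mul_one]
            have hk' : y ^ k = (a : G) * b * t := hk
            rw [ea, eb] at hk'
            have e' : y ^ i * t * (y ^ j * t) * t = y ^ i * ((t * y * t⁻¹) ^ j) * t := by
              rw [conj_zpow, inv_eq_of_mul_eq_one_right ht]
              simp only [← mul_assoc]
            rw [e', hty] at hk'
            refine htn ⟨k + j - i, ?_⟩
            show y ^ (k + j - i) = t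
            rw [inv_zpow] at hk'
            have : t = (y ^ j) * (y ^ i)⁻¹ * y ^ k := by rw [hk']; group
            rw [this, ← zpow_neg, ← zpow_add, ← zpow_add]
            congr 1; ring }
  let E : zpowers y ⊕ zpowers y ≃ D := Equiv.ofBijective
    (Sum.elim (fun w => ⟨(w : G), Or.inl w.2⟩)
      (fun w => ⟨(w : G) * t, Or.inr (by rw [mul_assoc, ht, mul_one]; exact w.2)⟩)) <| by
    constructor
    · rintro (a | a) (b | b) h <;> have h' := congrArg Subtype.val h <;> simp only [Sum.elim_inl, Sum.elim_inr] at h'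
      · exact congrArg Sum.inl (Subtype.ext h')
      · exact (hexcl _ b.2 (h' ▸ a.2)).elim
      · exact (hexcl _ a.2 (h'.symm ▸ b.2)).elim
      · exact congrArg Sum.inr (Subtype.ext (mul_right_cancel h'))
    · rintro ⟨g, hg | hg⟩
      · exact ⟨Sum.inl ⟨g, hg⟩, rfl⟩
      · exact ⟨Sum.inr ⟨g * t, hg⟩, Subtype.ext (by show g * t * t = g; rw [mul_assoc, ht, mul_one])⟩
  have hc7 : Fintype.card (zpowers y) = 7 := by rw [← Nat.card_eq_fintype_card, Nat.card_zpowers, hy]
  have hcardD : Nat.card D = 14 := by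
    rw [← Nat.card_congr E, Nat.card_eq_fintype_card, Fintype.card_sum, hc7]
  have hA : ∑ w : zpowers y, χ w = (d : ℂ) + 6 * v := by
    have hne : ∀ w ∈ ({1} : Finset (zpowers y))ᶜ, χ ((w : zpowers y) : G) = (v : ℂ) := fun w hw =>
      hv (w : G) w.2 fun h => by
        rw [Finset.mem_compl, Finset.mem_singleton] at hw
        exact hw (Subtype.ext h)
    rw [Fintype.sum_eq_add_sum_compl 1, OneMemClass.coe_one, hd, Finset.sum_congr rfl hne, Finset.sum_const,
      Finset.card_compl, hc7, Finset.card_singleton]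
    simp
  have hB : ∀ w : zpowers y, χ (w * t) = r := by
    intro w
    obtain ⟨k, hk⟩ := w.2
    refine (hcl t _ (isConj_iff.2 ⟨y ^ (4 * k), ?_⟩)).symm.trans hr
    have h7 : y ^ (7 : ℤ) = 1 := by
      rw [show (7 : ℤ) = ((orderOf y : ℕ) : ℤ) by rw [hy]; rfl, zpow_natCast, pow_orderOf_eq_one]
    calc y ^ (4 * k) * t * (y ^ (4 * k))⁻¹ = y ^ (4 * k) * (t * y * t⁻¹) ^ (-(4 * k)) * t := by
          rw [conj_zpow]; group
      _ = y ^ k * (y ^ (7 : ℤ)) ^ k * t := by
          rw [hty, inv_zpow, ← zpow_neg, neg_neg, ← zpow_mul, ← zpow_add, ← zpow_add]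
          congr 2; ring
      _ = w * t := by rw [h7, one_zpow, mul_one, show y ^ k = (w : G) from hk]
  obtain ⟨m1, hm1⟩ := exists_nat_sum hχ D
  obtain ⟨m2, hm2⟩ := exists_nat_twisted hχ D e
  rw [← E.sum_comp, Fintype.sum_sum_type, hcardD] at hm1 hm2
  have he1 : ∀ w : zpowers y, ((e ⟨(w : G), Or.inl w.2⟩ : ℂˣ) : ℂ) = 1 := fun w => by
    simp [e]
  have he2 : ∀ w : zpowers y, (((e (E (Sum.inr w)) : ℂˣ)) : ℂ) = -1 := fun w => by
    show (((if (w : G) * t ∈ zpowers y then (1 : ℂˣ) else -1) : ℂˣ) : ℂ) = -1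
    rw [if_neg fun h => hexcl _ w.2 h]; simp
  have hs1 : ∀ w : zpowers y, χ (E (Sum.inl w) : D) = χ w := fun w => rfl
  have hs2 : ∀ w : zpowers y, χ (E (Sum.inr w) : D) = r := fun w => hB w
  have hs3 : ∀ w : zpowers y, ((e (E (Sum.inl w)) : ℂˣ) : ℂ) = 1 := he1
  simp only [hs1, hs2, hA, Finset.sum_const, Finset.card_univ, hc7] at hm1
  simp only [hs1, hs2, hs3, he2, mul_one, hA, Finset.sum_const, Finset.card_univ, hc7] at hm2
  have e1 : (d : ℤ) + 6 * v + 7 * r = 14 * m1 := by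
    apply Int.cast_injective (α := ℂ); push_cast; simpa using hm1
  have e2 : (d : ℤ) + 6 * v - 7 * r = 14 * m2 := by
    apply Int.cast_injective (α := ℂ); push_cast
    simp only [nsmul_eq_mul] at hm2
    push_cast at hm2
    linear_combination hm2
  exact ⟨⟨m1, e1⟩, by omega, by omega⟩

end Dihedral

variable {G : Type u} [Group G] [Fintype G] (hcard : Nat.card G = 12096) (hno : NoOrders G)
include hcard hno

theorem exists_six : ∃ y n : G, orderOf y = 7 ∧ Nat.card (centralizer ({y} : Set G)) = 7 ∧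
    orderOf n = 6 ∧ n * y * n⁻¹ = y ^ 3 := by
  classical
  haveI : Fact (Nat.Prime 7) := ⟨by norm_num⟩
  obtain ⟨P⟩ := (inferInstance : Nonempty (Sylow 7 G))
  obtain ⟨hP, hN⟩ := sylow_seven hcard hno P
  obtain ⟨⟨y, hyP⟩, hy⟩ := exists_seven (H := (P : Subgroup G)) (dvd_of_eq hP.symm)
  rw [Subgroup.orderOf_mk] at hy
  obtain ⟨h49, hpr⟩ := primes_of_dvd (dvd_of_eq hcard)
  have hC := hno.card_centralizer_seven h49 hpr hy
  have hzy : zpowers y = (P : Subgroup G) :=
    eq_of_le_of_card_ge (zpowers_le.2 hyP) (by rw [hP, Nat.card_zpowers, hy])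
  set N := normalizer ((P : Subgroup G) : Set G)
  have hk : ∀ n : N, ∃ k : Fin 7, (n : G) * y * (n : G)⁻¹ = y ^ (k : ℕ) := fun n => by
    have hmem : (n : G) * y * (n : G)⁻¹ ∈ zpowers y := by
      rw [hzy]; exact (mem_normalizer_iff.1 n.2 y).1 hyP
    obtain ⟨k, hk⟩ := (isOfFinOrder_of_finite y).mem_powers_iff_mem_zpowers.2 hmem
    exact ⟨⟨k % 7, Nat.mod_lt _ (by norm_num)⟩, by show _ = y ^ (k % 7); rw [← hy, pow_mod_orderOf]; exact hk.symm⟩
  choose k hk using hk
  have hk0 : ∀ n : N, k n ≠ 0 := fun n h0 => by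
    have h1 := hk n
    rw [h0, Fin.val_zero, pow_zero, conj_eq_one_iff] at h1
    rw [h1, orderOf_one] at hy
    norm_num at hy
  have hfib : ∀ j ∈ Finset.univ.image k, (Finset.univ.filter fun n => k n = j).card ≤ 7 := by
    intro j hj
    obtain ⟨n0, -, hn0⟩ := Finset.mem_image.1 hj
    have hCy : ∀ n, k n = j → ((n0 : G))⁻¹ * n ∈ zpowers y := fun n hn => by
      rw [zpowers_eq_centralizer (dvd_of_eq hcard) hno hy]
      refine mem_centralizer_singleton_iff.2 ?_
      have e : (n0 : G) * y * (n0 : G)⁻¹ = (n : G) * y * (n : G)⁻¹ := by rw [hk, hk, hn0, hn]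
      calc ((n0 : G))⁻¹ * n * y = ((n0 : G))⁻¹ * ((n : G) * y * (n : G)⁻¹) * n := by group
        _ = y * ((n0 : G)⁻¹ * n) := by rw [← e]; group
    have hc7 : (Finset.univ : Finset (zpowers y)).card = 7 := by
      rw [Finset.card_univ, ← Nat.card_eq_fintype_card, Nat.card_zpowers, hy]
    refine (Finset.card_le_card_of_injOn (fun n => if h : k n = j then ⟨_, hCy n h⟩ else 1)
      (fun n _ => Finset.mem_univ _) ?_).trans_eq hc7
    intro a ha b hb hab
    simp only [Finset.coe_filter, Finset.mem_univ, true_and, Set.mem_setOf_eq] at ha hb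
    simp only [dif_pos ha, dif_pos hb, Subtype.mk.injEq, mul_right_inj] at hab
    exact Subtype.ext hab
  have h3 : ∃ n, k n = 3 := by
    by_contra h3
    push Not at h3
    have hsub : Finset.univ.image k ⊆ ({1, 2, 4, 5, 6} : Finset (Fin 7)) := by
      intro j hj
      obtain ⟨n, -, rfl⟩ := Finset.mem_image.1 hj
      have h := hk0 n
      have h' := h3 n
      generalize k n = j at h h'
      revert j
      decide
    have h := Finset.card_le_mul_card_image Finset.univ 7 hfib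
    rw [Finset.card_univ, ← Nat.card_eq_fintype_card, hN] at h
    have := Finset.card_le_card hsub
    simp at this
    omega
  obtain ⟨n, hn⟩ := h3
  have hny := hk n
  rw [hn] at hny
  change (n : G) * y * (n : G)⁻¹ = y ^ 3 at hny
  have hpow : ∀ i : ℕ, (n : G) ^ i * y * ((n : G) ^ i)⁻¹ = y ^ (3 ^ i) := by
    intro i
    induction i with
    | zero => simp
    | succ i ih =>
      rw [pow_succ', show (n : G) * n ^ i * y * ((n : G) * n ^ i)⁻¹ = n * (n ^ i * y * ((n : G) ^ i)⁻¹) * (n : G)⁻¹ by group,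
        ih, ← conj_pow, hny, ← pow_mul, pow_succ']
  refine ⟨y, n, hy, hC, ?_, hny⟩
  have hd : orderOf (n : G) ∣ 42 := hN ▸ Subgroup.orderOf_dvd_natCard _ n.2
  have h1 := hpow (orderOf (n : G))
  rw [pow_orderOf_eq_one, one_mul, inv_one, mul_one] at h1
  have h2 : 3 ^ orderOf (n : G) % 7 = 1 := by
    have h := pow_eq_pow_iff_modEq.1 (h1.symm.trans (pow_one y).symm)
    rw [hy] at h
    exact h
  have hne : ¬ 14 ∣ orderOf (n : G) := hno.fourteen _
  have hmem := Nat.mem_divisors.2 ⟨hd, (by norm_num : (42 : ℕ) ≠ 0)⟩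
  rw [show Nat.divisors 42 = {1, 2, 3, 6, 7, 14, 21, 42} by decide +kernel] at hmem
  simp only [Finset.mem_insert, Finset.mem_singleton] at hmem
  rcases hmem with e | e | e | e | e | e | e | e <;> rw [e] at h2 hne ⊢ <;> omega

/-- No simple group. -/
theorem not_simple : ¬ IsSimpleGroup G := by
  classical
  intro hs
  haveI : Fintype (IrrCharacter G) := Fintype.ofFinite _
  have hM : ¬ IsMulCommutative G := not_isMulCommutative_of_card_eq hcard (by norm_num)
  obtain ⟨y, n, hy, hC, hn6, hny⟩ := exists_six hcard hno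
  have hall : ∀ t : ℕ, t.Coprime 7 → IsConj y (y ^ t) := by
    intro t ht
    have hpow : ∀ i : ℕ, IsConj y (y ^ (3 ^ i)) := fun i => by
      induction i with
      | zero => simpa using IsConj.refl y
      | succ i ih =>
        refine ih.trans ?_
        rw [pow_succ', pow_mul]
        exact isConj_pow (isConj_iff.2 ⟨n, hny⟩) _
    rw [← pow_mod_orderOf, hy]
    have h0 : t % 7 ≠ 0 := fun h => by
      have h' := Nat.dvd_gcd (Nat.dvd_of_mod_eq_zero h) (dvd_refl 7)
      rw [ht.gcd_eq_one] at h'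
      norm_num at h'
    have hlt := Nat.mod_lt t (show 7 > 0 by norm_num)
    have hcases : t % 7 = 3 ^ 0 % 7 ∨ t % 7 = 3 ^ 1 % 7 ∨ t % 7 = 3 ^ 2 % 7 ∨ t % 7 = 3 ^ 3 % 7 ∨
        t % 7 = 3 ^ 4 % 7 ∨ t % 7 = 3 ^ 5 % 7 := by norm_num; omega
    rcases hcases with h | h | h | h | h | h <;> rw [h, ← hy, pow_mod_orderOf] <;>
      exact hpow _
  obtain ⟨v, hv1, hv7, hval, hvd, hlin⟩ := column_six hy hC hall
  set t := n ^ 3 with htdef
  have ht2 : t * t = 1 := by
    have h := pow_orderOf_eq_one n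
    rw [hn6] at h
    rw [htdef, ← pow_add]; exact h
  have ht1 : t ≠ 1 := fun h => by
    have := orderOf_dvd_of_pow_eq_one h
    rw [hn6] at this
    norm_num at this
  have hto : orderOf t = 2 := by
    rw [orderOf_eq_iff (by norm_num)]
    refine ⟨by rw [pow_two]; exact ht2, fun m hm hm0 => ?_⟩
    obtain rfl : m = 1 := by omega
    rwa [pow_one]
  have hty : t * y * t⁻¹ = y⁻¹ := by
    have e : t * y * t⁻¹ = y ^ 27 := by
      rw [htdef, show n ^ 3 = n * n * n by rw [pow_succ, pow_two],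
        show n * n * n * y * (n * n * n)⁻¹ = n * (n * (n * y * n⁻¹) * n⁻¹) * n⁻¹ by group, hny, ← conj_pow,
        hny, ← pow_mul, ← conj_pow, hny, ← pow_mul]
    rw [e, ← pow_mod_orderOf, hy]
    refine (inv_eq_of_mul_eq_one_right ?_).symm
    rw [← pow_succ', show 27 % 7 + 1 = 7 by norm_num, ← hy, pow_orderOf_eq_one]
  have hgen : ∀ w ∈ zpowers y, w ≠ 1 → IsConj y w := by
    intro w hw hw1
    obtain ⟨k, rfl⟩ := (isOfFinOrder_of_finite y).mem_powers_iff_mem_zpowers.2 hw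
    refine hall k ((Nat.Prime.coprime_iff_not_dvd (by norm_num)).2 fun h => hw1 ?_).symm
    exact orderOf_dvd_iff_pow_eq_one.1 (hy.symm ▸ h)
  have hty' : ¬ IsConj y t := fun h => by
    obtain ⟨c, hc⟩ := isConj_iff.1 h
    rw [← hc, CfsgLib.Involutions.orderOf_conj, hy] at hto
    norm_num at hto
  -- the data of the characters
  choose deg hdeg using fun χ : IrrCharacter G => exists_degree χ
  have hr : ∀ χ : IrrCharacter G, ∃ r : ℤ, (χ : G → ℂ) t = r ∧ (4 : ℤ) ∣ (deg χ : ℤ) - r := fun χ => by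
    obtain ⟨d, r, hd, hr, h4, -, -⟩ :=
      exists_int_four (IsIrrCharacter.isCharacter χ.2) ht2 fun f => lin_trivial hM f t
    rw [(hdeg χ).1] at hd
    exact ⟨r, hr, by rwa [Nat.cast_injective hd]⟩
  choose r hr hr4 using hr
  have hsum2 : ∑ χ, deg χ ^ 2 = 12096 := by
    apply Nat.cast_injective (R := ℂ)
    rw [← hcard, ← sum_degree_sq (G := G), Nat.cast_sum]
    exact Finset.sum_congr rfl fun χ _ => by rw [Nat.cast_pow, (hdeg χ).1]
  have hd0 : deg (trivIrr G) = 1 := by exact_mod_cast (hdeg (trivIrr G)).1.symm.trans (trivIrr_apply 1)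
  have hr0 : r (trivIrr G) = 1 := by exact_mod_cast (hr (trivIrr G)).symm.trans (trivIrr_apply t)
  have hdih : ∀ χ : IrrCharacter G, (14 : ℤ) ∣ (deg χ : ℤ) + 6 * v χ + 7 * r χ ∧
      0 ≤ (deg χ : ℤ) + 6 * v χ + 7 * r χ ∧ 0 ≤ (deg χ : ℤ) + 6 * v χ - 7 * r χ := fun χ =>
    dihedral_sums hy ht2 ht1 hty (IsIrrCharacter.isCharacter χ.2) (hdeg χ).1
      (fun w hw hw1 => (irr_apply_eq_of_isConj (hgen w hw hw1) χ).symm.trans (hval χ)) (hr χ)
      fun a b h => irr_apply_eq_of_isConj h χ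
  set S := (Finset.univ.erase (trivIrr G)).filter fun χ => v χ ≠ 0 with hS
  have hmemS : ∀ χ ∈ S, χ ≠ trivIrr G ∧ v χ ≠ 0 := fun χ hχ => by simpa [hS] using hχ
  have hkey : ∀ χ ∈ S, (v χ, deg χ) ∈ keys := by
    intro χ hχ
    obtain ⟨hne, hv0⟩ := hmemS χ hχ
    have hd2 : deg χ ^ 2 + 1 ≤ 12096 := by
      have h := Finset.sum_le_sum_of_subset (f := fun χ => deg χ ^ 2)
        (Finset.subset_univ ({χ, trivIrr G} : Finset (IrrCharacter G)))
      rw [Finset.sum_pair hne, hsum2, hd0] at h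
      simpa using h
    have hv2 : v χ ^ 2 ≤ 6 := by
      have h := Finset.sum_le_sum_of_subset_of_nonneg (f := fun χ => v χ ^ 2)
        (Finset.subset_univ ({χ, trivIrr G} : Finset (IrrCharacter G))) fun χ _ _ => sq_nonneg _
      rw [Finset.sum_pair hne, hv7, hv1] at h
      linarith
    have hvI : v χ ∈ Finset.Icc (-2 : ℤ) 2 := Finset.mem_Icc.2 ⟨by nlinarith, by nlinarith⟩
    refine keys_complete _ (List.mem_range.2 (by nlinarith)) (hcard ▸ (hdeg χ).2.2)
      (one_lt_degree hM (Ne.symm hne) (hdeg χ).1 (hdeg χ).2.1) _ hvI hv0 (hvd χ _ (hdeg χ).1) ?_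
    by_contra h6
    push Not at h6
    obtain ⟨h6v, h6d⟩ := h6
    obtain ⟨-, h1, h2⟩ := hdih χ
    have h4 := hr4 χ
    rw [h6v, h6d] at h1 h2
    rw [h6d] at h4
    omega
  have hsplit : ∀ F : IrrCharacter G → ℂ,
      ∑ χ, (v χ : ℂ) * F χ = F (trivIrr G) + ∑ χ ∈ S, (v χ : ℂ) * F χ := fun F => by
    rw [← Finset.add_sum_erase _ _ (Finset.mem_univ (trivIrr G)), hv1, Int.cast_one, one_mul]
    congr 1
    rw [hS, Finset.sum_filter_of_ne]
    intro χ _ h h0
    rw [h0, Int.cast_zero, zero_mul] at h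
    exact h rfl
  -- the three linear equations
  have E0 : 1 + ∑ χ ∈ S, v χ * (deg χ : ℤ) = 0 := by
    have h := hlin 1 (fun h => by rw [isConj_one_left] at h; rw [h, orderOf_one] at hy; norm_num at hy)
    simp only [fun χ => (hdeg χ).1] at h
    rw [hsplit (fun χ => (deg χ : ℂ)), hd0] at h
    apply Int.cast_injective (α := ℂ)
    push_cast
    simpa using h
  have E1 : 1 + ∑ χ ∈ S, v χ * r χ = 0 := by
    have h := hlin t hty'
    simp only [hr] at h
    rw [hsplit (fun χ => (r χ : ℂ)), hr0] at h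
    apply Int.cast_injective (α := ℂ)
    push_cast
    simpa using h
  have E3 : ∑ χ ∈ S, v χ ^ 2 = 6 := by
    rw [← Finset.add_sum_erase _ _ (Finset.mem_univ (trivIrr G)), hv1] at hv7
    rw [hS, Finset.sum_filter_of_ne]
    · linarith
    · intro χ _ h h0
      rw [h0] at h
      norm_num at h
  have E4 : ∑ χ ∈ S, (deg χ : ℤ) ^ 2 ≤ 12095 := by
    have h : ∑ χ ∈ S, deg χ ^ 2 ≤ 12095 := by
      have h' := Finset.add_sum_erase (f := fun χ => deg χ ^ 2) _ (Finset.mem_univ (trivIrr G))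
      rw [hsum2, hd0] at h'
      have := Finset.sum_le_sum_of_subset (f := fun χ => deg χ ^ 2)
        (Finset.filter_subset (fun χ => v χ ≠ 0) (Finset.univ.erase (trivIrr G)))
      rw [← hS] at this
      omega
    exact_mod_cast h
  -- the pairs of involutions
  have hpairs := pairs_formula t y 7 fun s hs => by
    have himg : s = (Finset.univ : Finset (zpowers y)).image fun w : zpowers y => (w : G) * t := by
      ext x
      rw [hs x, Finset.mem_image]
      constructor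
      · rintro ⟨hx, hxy⟩
        have ho : ∀ w, IsConj t w → orderOf w = 2 := fun w hw => by
          obtain ⟨c, rfl⟩ := isConj_iff.1 hw
          rw [CfsgLib.Involutions.orderOf_conj, hto]
        have h := CfsgLib.Involutions.conj_mul_eq_inv (ho x hx) (ho _ hxy)
        have hx2 := CfsgLib.Involutions.mul_self_eq_one (ho x hx)
        simp only [← mul_assoc, hx2, one_mul] at h
        refine ⟨⟨x * t, ?_⟩, Finset.mem_univ _, by show x * t * t = x; rw [mul_assoc, ht2, mul_one]⟩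
        rw [zpowers_eq_centralizer (dvd_of_eq hcard) hno hy]
        refine mem_centralizer_singleton_iff.2 (mul_inv_eq_iff_eq_mul.1 ?_)
        calc x * t * y * (x * t)⁻¹ = x * (t * y * t⁻¹) * x⁻¹ := by group
          _ = (x * y * x⁻¹)⁻¹ := by rw [hty]; group
          _ = y := by rw [h, inv_inv]
      · rintro ⟨w, -, rfl⟩
        have key : ∀ w ∈ zpowers y, IsConj t (w * t) := by
          rintro w ⟨k, rfl⟩
          refine isConj_iff.2 ⟨y ^ (4 * k), ?_⟩
          have h7 : y ^ (7 : ℤ) = 1 := by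
            rw [show (7 : ℤ) = ((orderOf y : ℕ) : ℤ) by rw [hy]; rfl, zpow_natCast, pow_orderOf_eq_one]
          calc y ^ (4 * k) * t * (y ^ (4 * k))⁻¹ = y ^ (4 * k) * (t * y * t⁻¹) ^ (-(4 * k)) * t := by
                rw [conj_zpow]; group
            _ = y ^ k * (y ^ (7 : ℤ)) ^ k * t := by
                rw [hty, inv_zpow, ← zpow_neg, neg_neg, ← zpow_mul, ← zpow_add, ← zpow_add]
                congr 2; ring
            _ = y ^ k * t := by rw [h7, one_zpow, mul_one]
        refine ⟨key _ w.2, ?_⟩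
        have e : (w : G) * t * y = (w : G) * y⁻¹ * t := by
          rw [← hty]; group
        rw [e]
        exact key _ (mul_mem w.2 (inv_mem (mem_zpowers y)))
    rw [himg, Finset.card_image_of_injective _ fun a b h => Subtype.ext (mul_right_cancel h), Finset.card_univ,
      ← Nat.card_eq_fintype_card, Nat.card_zpowers, hy]
  have E2 : (7 : ℂ) * (Nat.card (centralizer ({t} : Set G)) : ℂ) ^ 2 =
      12096 * (1 + ∑ χ ∈ S, (v χ : ℂ) * ((r χ : ℂ) ^ 2 / (deg χ : ℂ))) := by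
    rw [Finset.sum_congr rfl fun (χ : IrrCharacter G) _ =>
      (show (χ : G → ℂ) t * conj ((χ : G → ℂ) t) * (χ : G → ℂ) y / (χ : G → ℂ) 1 =
        (v χ : ℂ) * ((r χ : ℂ) ^ 2 / (deg χ : ℂ)) by rw [hr, hval, (hdeg χ).1, map_intCast]; ring),
      hsplit (fun χ => (r χ : ℂ) ^ 2 / (deg χ : ℂ)), hr0, hd0, hcard, Int.cast_one, one_pow,
      Nat.cast_one, div_one] at hpairs
    have hci := (centralizer ({t} : Set G)).card_mul_index
    rw [hcard] at hci
    have hci' : (Nat.card (centralizer ({t} : Set G)) : ℂ) * ((centralizer ({t} : Set G)).index : ℂ) = 12096 := by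
      exact_mod_cast hci
    field_simp at hpairs
    push_cast at hpairs
    have hi0 : ((centralizer ({t} : Set G)).index : ℂ) ≠ 0 := Nat.cast_ne_zero.2 Subgroup.index_ne_zero_of_finite
    simp only [mul_div_assoc] at hpairs
    apply mul_right_cancel₀ (pow_ne_zero 2 hi0)
    linear_combination ((Nat.card (centralizer ({t} : Set G)) : ℂ) * ((centralizer ({t} : Set G)).index : ℂ) + 12096) * 7 * hci' + 12096 * hpairs
  -- counting
  have hfib : ∀ {β : Type} [AddCommMonoid β] (F : IrrCharacter G → β),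
      ∑ χ ∈ S, F χ = ∑ k ∈ keys, ∑ χ ∈ S.filter (fun χ => (v χ, deg χ) = k), F χ := fun F =>
    (Finset.sum_fiberwise_of_maps_to hkey F).symm
  set c : ℤ × ℕ → ℕ := fun k => (S.filter (fun χ => (v χ, deg χ) = k)).card with hc
  have hcount : ∀ F : ℤ × ℕ → ℤ, ∑ χ ∈ S, F (v χ, deg χ) = ∑ k ∈ keys, (c k : ℤ) * F k := fun F => by
    rw [hfib]
    refine Finset.sum_congr rfl fun k _ => ?_
    rw [Finset.sum_congr rfl fun χ hχ => by rw [(Finset.mem_filter.1 hχ).2], Finset.sum_const, nsmul_eq_mul]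
  have L0 := E0
  rw [hcount fun k => k.1 * k.2] at L0
  have L3 := E3
  rw [hcount fun k => k.1 ^ 2] at L3
  have L4 := E4
  rw [hcount fun k => (k.2 : ℤ) ^ 2] at L4
  simp only [keys, Finset.sum_insert, Finset.mem_insert, Finset.mem_singleton, Prod.mk.injEq,
    Finset.sum_singleton, not_false_eq_true, reduceCtorEq, and_false, or_false, Nat.reduceEqDiff,
    Int.reduceNeg, Int.reduceEq, and_self] at L0 L3 L4
  norm_num at L0 L3 L4
  have hsol := sol (c (1, 8)) (c (1, 36)) (c (1, 64)) (c (-1, 27)) (c (-1, 48)) (c (2, 2)) (c (2, 9)) (c (2, 16))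
    (c (2, 72)) (c (-2, 12)) (c (-2, 54)) (c (-2, 96)) (by linarith) (by linarith) (by linarith)
  clear L0 L3 L4
  have hmemf : ∀ k, ∀ χ ∈ S.filter (fun χ => (v χ, deg χ) = k), χ ∈ S ∧ v χ = k.1 ∧ deg χ = k.2 := fun k χ hχ => by
    obtain ⟨h1, h2⟩ := Finset.mem_filter.1 hχ
    exact ⟨h1, congrArg Prod.fst h2, congrArg Prod.snd h2⟩
  -- the value zero in degree eight
  have h8 : ∀ χ ∈ S.filter (fun χ => (v χ, deg χ) = ((1 : ℤ), 8)), r χ = 0 := fun χ hχ => by
    obtain ⟨-, h1, h2⟩ := hmemf _ χ hχ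
    simp only at h1 h2
    obtain ⟨-, hl, hu⟩ := hdih χ
    have h4 := hr4 χ
    rw [h1, h2] at hl hu
    rw [h2] at h4
    omega
  -- the value three in degree twenty-seven
  have h27 : ∀ χ ∈ S.filter (fun χ => (v χ, deg χ) = ((-1 : ℤ), 27)), r χ = 3 := fun χ hχ => by
    obtain ⟨-, h1, h2⟩ := hmemf _ χ hχ
    simp only at h1 h2
    obtain ⟨-, hl, hu⟩ := hdih χ
    have h4 := hr4 χ
    rw [h1, h2] at hl hu
    rw [h2] at h4
    obtain ⟨m, hm⟩ := exists_nat_sum (IsIrrCharacter.isCharacter χ.2) (zpowers n)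
    have hvan : ∀ g : G, 3 ∣ orderOf g → (χ : G → ℂ) g = 0 := fun g hg =>
      IsIrrCharacter.eq_zero_of_fullDegree χ.2 (n := 3) Nat.prime_three
        (by rw [hcard]; norm_num) (d := 27) (by rw [(hdeg χ).1, h2]) (by norm_num) hg
    have hord : ∀ k : ℕ, 3 ∣ orderOf (n ^ k) ∨ 3 ∣ k := fun k => by
      by_cases h : 3 ∣ k
      · exact Or.inr h
      refine Or.inl ?_
      rw [orderOf_pow, hn6]
      have hk3 := Nat.gcd_dvd_left 6 k
      have hg : ¬ 3 ∣ Nat.gcd 6 k := fun e => h (e.trans (Nat.gcd_dvd_right 6 k))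
      have hle := Nat.le_of_dvd (by norm_num) hk3
      generalize Nat.gcd 6 k = g at hk3 hg hle
      interval_cases g <;> omega
    rw [Nat.card_zpowers, hn6, ← (finEquivZPowers (isOfFinOrder_of_finite n)).sum_comp,
      ← (finCongr hn6.symm).sum_comp, Fin.sum_univ_six] at hm
    simp only [finEquivZPowers_apply, finCongr_apply, Fin.val_cast, Fin.val_zero, Fin.val_one,
      Fin.val_two, pow_zero, pow_one] at hm
    have w1 : (χ : G → ℂ) n = 0 := hvan n (by rw [hn6]; norm_num)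
    have w2 : (χ : G → ℂ) (n ^ 2) = 0 := hvan _ ((hord 2).resolve_right (by norm_num))
    have w4 : (χ : G → ℂ) (n ^ 4) = 0 := hvan _ ((hord 4).resolve_right (by norm_num))
    have w5 : (χ : G → ℂ) (n ^ 5) = 0 := hvan _ ((hord 5).resolve_right (by norm_num))
    simp only [show ((3 : Fin 6) : ℕ) = 3 from rfl, show ((4 : Fin 6) : ℕ) = 4 from rfl,
      show ((5 : Fin 6) : ℕ) = 5 from rfl, ← htdef, w1, w2, w4, w5, (hdeg χ).1, h2, hr] at hm
    have h6 : (27 : ℤ) + r χ = 6 * (m : ℤ) := by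
      apply Int.cast_injective (α := ℂ)
      push_cast
      linear_combination hm
    omega
  have hfib0 : ∀ k, c k = 0 → ∀ {β : Type} [AddCommMonoid β] (F : IrrCharacter G → β),
      ∑ χ ∈ S.filter (fun χ => (v χ, deg χ) = k), F χ = 0 := fun k hk β _ F => by
    rw [Finset.card_eq_zero.1 hk, Finset.sum_empty]
  have hS8 : ∀ (F : ℤ → ℤ → ℂ), ∑ χ ∈ S.filter (fun χ => (v χ, deg χ) = ((1 : ℤ), 8)), F (v χ) (r χ) =
      (c (1, 8) : ℂ) * F 1 0 := fun F => by
    rw [Finset.sum_congr rfl fun χ hχ => by rw [(hmemf _ χ hχ).2.1, h8 χ hχ], Finset.sum_const, nsmul_eq_mul]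
  have hS27 : ∀ (F : ℤ → ℤ → ℂ), ∑ χ ∈ S.filter (fun χ => (v χ, deg χ) = ((-1 : ℤ), 27)), F (v χ) (r χ) =
      (c (-1, 27) : ℂ) * F (-1) 3 := fun F => by
    rw [Finset.sum_congr rfl fun χ hχ => by rw [(hmemf _ χ hχ).2.1, h27 χ hχ], Finset.sum_const, nsmul_eq_mul]
  have hd8 : ∀ χ ∈ S.filter (fun χ => (v χ, deg χ) = ((1 : ℤ), 8)),
      (v χ : ℂ) * ((r χ : ℂ) ^ 2 / (deg χ : ℂ)) = (v χ : ℂ) * ((r χ : ℂ) ^ 2 / 8) := fun χ hχ => by
    rw [(hmemf _ χ hχ).2.2]; norm_num
  have hd27 : ∀ χ ∈ S.filter (fun χ => (v χ, deg χ) = ((-1 : ℤ), 27)),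
      (v χ : ℂ) * ((r χ : ℂ) ^ 2 / (deg χ : ℂ)) = (v χ : ℂ) * ((r χ : ℂ) ^ 2 / 27) := fun χ hχ => by
    rw [(hmemf _ χ hχ).2.2]; norm_num
  have E1' : (1 : ℂ) + ∑ χ ∈ S, (v χ : ℂ) * (r χ : ℂ) = 0 := by exact_mod_cast E1
  rw [hfib] at E1' E2
  simp (discharger := decide) only [keys, Finset.sum_insert, Finset.sum_singleton] at E1' E2
  rw [hS8 (fun a b => (a : ℂ) * (b : ℂ)), hS27 (fun a b => (a : ℂ) * (b : ℂ))] at E1'
  rw [Finset.sum_congr rfl hd8, Finset.sum_congr rfl hd27, hS8 (fun a b => (a : ℂ) * ((b : ℂ) ^ 2 / 8)),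
    hS27 (fun a b => (a : ℂ) * ((b : ℂ) ^ 2 / 27))] at E2
  have hsq : ∀ S' : ℕ, 7 * ((Nat.card (centralizer ({t} : Set G)) : ℕ) : ℂ) ^ 2 = (S' : ℂ) →
      7 * Nat.card (centralizer ({t} : Set G)) ^ 2 = S' := fun S' h => by exact_mod_cast h
  have hno1 : ∀ C : ℕ, C ^ 2 ≠ 1728 ∧ C ^ 2 ≠ 1536 := fun C => by
    refine ⟨fun h => ?_, fun h => ?_⟩ <;>
    · have h1 : C < 42 := by nlinarith
      interval_cases C <;> norm_num at h
  obtain ⟨b8, b36, b64, b27, b48, a2, a9, a16, a72, a12, a54, a96⟩ |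
      ⟨b8, b36, b64, b27, b48, a2, a9, a16, a72, a12, a54, a96⟩ |
      ⟨b8, b36, b64, b27, b48, a2, a9, a16, a72, a12, a54, a96⟩ := hsol
  · simp only [b8, b27, hfib0 _ b36, hfib0 _ b64, hfib0 _ b48, hfib0 _ a2, hfib0 _ a16, hfib0 _ a72, hfib0 _ a12,
      hfib0 _ a54, hfib0 _ a96] at E1' E2
    obtain ⟨ψ, hψ⟩ := Finset.card_eq_one.1 a9
    obtain ⟨-, q1, q2⟩ := hmemf _ ψ (hψ ▸ Finset.mem_singleton_self ψ)
    simp only [hψ, Finset.sum_singleton] at E1' E2
    rw [q1] at E1' E2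
    rw [q2] at E2
    push_cast at E1' E2
    have hrψ : (r ψ : ℂ) = 1 := by linear_combination E1' / 2
    rw [hrψ] at E2
    refine (hno1 _).2 (Nat.eq_of_mul_eq_mul_left (by norm_num : 0 < 7) (hsq (7 * 1536) ?_))
    push_cast
    linear_combination E2
  · simp only [b8, b27, hfib0 _ b36, hfib0 _ a9, hfib0 _ b48, hfib0 _ a2, hfib0 _ a16, hfib0 _ a72, hfib0 _ a12,
      hfib0 _ a54, hfib0 _ a96] at E1' E2
    obtain ⟨ψ, hψ⟩ := Finset.card_eq_one.1 b64
    obtain ⟨-, q1, q2⟩ := hmemf _ ψ (hψ ▸ Finset.mem_singleton_self ψ)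
    simp only [hψ, Finset.sum_singleton] at E1' E2
    rw [q1] at E1' E2
    rw [q2] at E2
    push_cast at E1' E2
    have hrψ : (r ψ : ℂ) = 8 := by linear_combination E1'
    rw [hrψ] at E2
    refine (hno1 _).1 (Nat.eq_of_mul_eq_mul_left (by norm_num : 0 < 7) (hsq (7 * 1728) ?_))
    push_cast
    linear_combination E2
  · simp only [b8, b27, hfib0 _ b64, hfib0 _ a9, hfib0 _ b48, hfib0 _ a2, hfib0 _ a16, hfib0 _ a72, hfib0 _ a12,
      hfib0 _ a54, hfib0 _ a96] at E1' E2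
    obtain ⟨ψ, φ, hne', hψ⟩ := Finset.card_eq_two.1 b36
    obtain ⟨-, q1, q2⟩ := hmemf _ ψ (hψ ▸ Finset.mem_insert_self ψ _)
    obtain ⟨-, p1, p2⟩ := hmemf _ φ (hψ ▸ Finset.mem_insert_of_mem (Finset.mem_singleton_self φ))
    simp only [hψ, Finset.sum_pair hne'] at E1' E2
    rw [q1, p1] at E1' E2
    rw [q2, p2] at E2
    push_cast at E1' E2
    simp only at q1 q2 p1 p2
    obtain ⟨-, l1, u1⟩ := hdih ψ
    obtain ⟨-, l2, u2⟩ := hdih φ
    have k1 := hr4 ψ
    have k2 := hr4 φ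
    rw [q1, q2] at l1 u1
    rw [p1, p2] at l2 u2
    rw [q2] at k1
    rw [p2] at k2
    have hsum : r ψ + r φ = 8 := by
      apply Int.cast_injective (α := ℂ); push_cast; linear_combination E1'
    obtain ⟨e1, e2⟩ : r ψ = 4 ∧ r φ = 4 := by omega
    rw [e1, e2] at E2
    refine (hno1 _).2 (Nat.eq_of_mul_eq_mul_left (by norm_num : 0 < 7) (hsq (7 * 1536) ?_))
    push_cast
    push_cast at E2
    linear_combination E2

end CfsgLib.GTwoTwo
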