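import Cfsg.Agent.Lib.GTwoTwo.Action
import Cfsg.Agent.Lib.GTwoTwo.Kill

/-!
A group of order 12096 without elements of order 9, 14 and 21 is unique up to isomorphism.
-/

set_option autoImplicit false
set_option linter.style.haveILetI false

open Subgroup

namespace CfsgLib.GTwoTwo

universe u

open CfsgLib.GTwoTwo.Data (hm hap look lt)

/-- The generators of the standard group. -/
def stdGens : Set (Equiv.Perm (Fin 28)) :=
  {p | (∃ a < 27, ∀ x : Fin 28, ((p x : Fin 28) : ℕ) = lt a x) ∨
    (∃ k < 16, ∀ x : Fin 28, ((p x : Fin 28) : ℕ) = hap k x) ∨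
      ∀ x : Fin 28, ((p x : Fin 28) : ℕ) = look Data.tau0 x}

/-- The standard group. -/
def Std : Subgroup (Equiv.Perm (Fin 28)) := Subgroup.closure stdGens

theorem fixCount_eq (x : ℕ) : Data.fixCount x = ((Finset.range 16).filter fun k => hap k x = x).card := by
  rw [Data.fixCount, ← List.toFinset_card_of_nodup ((List.nodup_range).filter _)]
  congr 1
  ext k
  simp

theorem hap_lt' {k : ℕ} (hk : k < 16) {x : ℕ} (hx : x < 28) : hap k x < 28 := by
  by_cases h : x < 27
  · have := (Data.hap_lt k hk).1 x h; omega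
  · rw [show x = 27 by omega, (Data.hap_lt k hk).2.1]; norm_num

theorem lt_lt' {a : ℕ} (ha : a < 27) {x : ℕ} (hx : x < 28) : lt a x < 28 := by
  rw [Data.lt]
  split_ifs with h
  · have := Data.hm_lt a ha x h; omega
  · norm_num

variable {G : Type u} [Group G]

theorem Model.nonempty_equiv (m : Model G) : Nonempty (G ≃* Std) := by
  classical
  let A : G → ℕ → ℕ := fun g x => if h : x < 28 then ((m.act g ⟨x, h⟩ : Fin 28) : ℕ) else x
  have hA : ∀ g (x : Fin 28), A g x = ((m.act g x : Fin 28) : ℕ) := fun g x => dif_pos x.2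
  have hAlt : ∀ g {x}, x < 28 → A g x < 28 := fun g x hx => by
    rw [show A g x = _ from dif_pos hx]; exact Fin.is_lt _
  have hAmul : ∀ g g' {x}, x < 28 → A (g * g') x = A g (A g' x) := fun g g' x hx => by
    have e : A g' x = ((m.act g' ⟨x, hx⟩ : Fin 28) : ℕ) := dif_pos hx
    rw [e, hA, show A (g * g') x = _ from dif_pos hx, map_mul]
    rfl
  have hAinj : ∀ g {x y}, x < 28 → y < 28 → A g x = A g y → x = y := fun g x y hx hy h => by
    rw [show A g x = _ from dif_pos hx, show A g y = _ from dif_pos hy] at h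
    exact congrArg Fin.val ((m.act g).injective (Fin.ext h))
  -- the elements
  choose ea hea using m.trans
  choose ek hek using m.aut
  have hea' : ∀ a (ha : a < 27) {x}, x < 28 → A (ea a ha) x = lt a x := fun a ha x hx => by
    rw [show A (ea a ha) x = _ from dif_pos hx, hea a ha ⟨x, hx⟩]
  have hek' : ∀ k (hk : k < 16) {x}, x < 28 → A (ek k hk) x = hap k x := fun k hk x hx => by
    rw [show A (ek k hk) x = _ from dif_pos hx, hek k hk ⟨x, hx⟩]
  have hstab : ∀ g, A g 27 = 27 → A g 0 = 0 → ∃ k < 16, ∀ x < 28, A g x = hap k x := fun g h27 h0 => by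
    obtain ⟨k, hk, h⟩ := m.stab g ((hA g 27).symm.trans h27) ((hA g 0).symm.trans h0)
    exact ⟨k, hk, fun x hx => by rw [show A g x = _ from dif_pos hx, h ⟨x, hx⟩]⟩
  obtain ⟨t, ht27, ht0, htt⟩ := m.swap
  let T := A t
  have hT27 : T 27 = 0 := by show A t 27 = 0; exact (hA t 27).trans (by rw [ht27]; rfl)
  have hT0 : T 0 = 27 := by show A t 0 = 27; exact (hA t 0).trans (by rw [ht0]; rfl)
  have hTT : ∀ {x}, x < 28 → T (T x) = x := fun {x} hx => by
    have e : T x = ((m.act t ⟨x, hx⟩ : Fin 28) : ℕ) := dif_pos hx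
    rw [e]
    exact (hA t _).trans (by rw [htt])
  have hTlt : ∀ {x}, x < 28 → T x < 28 := fun hx => hAlt t hx
  have hTinj : ∀ {x y}, x < 28 → y < 28 → T x = T y → x = y := fun hx hy h => hAinj t hx hy h
  -- conjugation by `t`
  have hcj : ∀ k, k < 16 → ∃ k' < 16, ∀ x < 28, T (hap k (T x)) = hap k' x := by
    intro k hk
    have hw : ∀ x < 28, A (t * ek k hk * t) x = T (hap k (T x)) := fun x hx => by
      rw [hAmul _ _ hx, hAmul _ _ (hTlt hx), hek' k hk (hTlt hx)]
    obtain ⟨k', hk', h⟩ := hstab (t * ek k hk * t)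
      (by rw [hw 27 (by norm_num), hT27, (Data.hap_lt k hk).2.2, hT0])
      (by rw [hw 0 (by norm_num), hT0, (Data.hap_lt k hk).2.1, hT27])
    exact ⟨k', hk', fun x hx => by rw [← hw x hx, h x hx]⟩
  choose cj hcjlt hcjv using hcj
  set gi := cj 1 (by norm_num) with hgidef
  set ri := cj 8 (by norm_num) with hridef
  have hgi16 : gi < 16 := hcjlt _ _
  have hri16 : ri < 16 := hcjlt _ _
  have hitlt : ∀ k < 16, ∀ n {x}, x < 28 → (hap k)^[n] x < 28 := by
    intro k hk n
    induction n with
    | zero => intro x hx; exact hx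
    | succ n ih => intro x hx; rw [Function.iterate_succ_apply']; exact hap_lt' hk (ih hx)
  have hit : ∀ k (hk : k < 16), ∀ n {x}, x < 28 → (hap (cj k hk))^[n] x = T ((hap k)^[n] (T x)) := by
    intro k hk n
    induction n with
    | zero => intro x hx; exact (hTT hx).symm
    | succ n ih =>
      intro x hx
      rw [Function.iterate_succ_apply', Function.iterate_succ_apply', ih hx,
        ← hcjv k hk _ (hTlt (hitlt k hk n (hTlt hx))), hTT (hitlt k hk n (hTlt hx))]
  obtain ⟨hg4, hg4', hr2⟩ := Data.hap_four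
  obtain ⟨hgiL, hgi4⟩ := Data.hap_order_eight gi hgi16 (by
    obtain ⟨x, hx, hne⟩ := hg4
    refine ⟨T x, hTlt hx, fun h => hne ?_⟩
    rw [hgidef, hit 1 (by norm_num) 4 (hTlt hx), hTT hx] at h
    exact hTinj (hitlt 1 (by norm_num) 4 hx) hx h)
  have hri2 : ∀ x < 28, hap ri (hap ri x) = x := fun x hx => by
    have h := hit 8 (by norm_num) 2 hx
    rw [Function.iterate_succ_apply', Function.iterate_one, Function.iterate_succ_apply', Function.iterate_one,
      hr2 _ (hTlt hx), hTT hx] at h
    exact h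
  have hriv : ∀ j, (∀ x < 28, hap ri x = hap j x) → ∀ y < 28, hap 8 y = T (hap j (T y)) := fun j h y hy => by
    rw [← h _ (hTlt hy), hridef, ← hcjv 8 (by norm_num) _ (hTlt hy), hTT hy, hTT (hap_lt' (by norm_num) hy)]
  have hriL : ri ∈ ([8, 10, 12, 14] : List ℕ) := by
    refine Data.hap_involution ri hri16 hri2 ?_ ?_
    · intro h0
      have h8 : ∀ y < 28, hap 8 y = y := fun y hy => by
        rw [hriv 0 (fun x _ => by rw [h0]) y hy, Data.hap_zero _ (hTlt hy), hTT hy]
      exact absurd (Data.hap_distinct 8 (by norm_num) 0 (by norm_num)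
        (by rw [h8 9 (by norm_num), Data.hap_zero 9 (by norm_num)])
        (by rw [h8 3 (by norm_num), Data.hap_zero 3 (by norm_num)])) (by norm_num)
    · intro h4
      have h8 : ∀ y < 28, hap 8 y = hap 4 y := fun y hy => by
        rw [hriv 4 (fun x _ => by rw [h4]) y hy, ← hgi4 _ (hTlt hy), hgidef, hit 1 (by norm_num) 4 (hTlt hy),
          hTT hy, hTT (hitlt 1 (by norm_num) 4 hy), hg4' y hy]
      exact absurd (Data.hap_distinct 8 (by norm_num) 4 (by norm_num) (h8 9 (by norm_num)) (h8 3 (by norm_num)))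
        (by norm_num)
  have hsig : ∀ k < 16, ∀ x < 28, T (hap k x) = Data.sig gi ri k (T x) := by
    intro k hk x hx
    rw [Data.sig, hgidef, hridef, hit 8 _ _ (hTlt hx), hTT hx,
      hit 1 _ _ (hTlt (hitlt 8 (by norm_num) _ hx)), hTT (hitlt 8 (by norm_num) _ hx), Data.hap_pow k hk x hx]
  -- counts
  have hfc : ∀ x < 28, Data.fixCount (T x) = Data.fixCount x := by
    have hle : ∀ x < 28, Data.fixCount x ≤ Data.fixCount (T x) := by
      intro x hx
      rw [fixCount_eq, fixCount_eq]
      refine Finset.card_le_card_of_injOn (fun k => if h : k < 16 then cj k h else 0) (fun k hk => ?_) ?_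
      · simp only [Finset.coe_filter, Finset.mem_range, Set.mem_ofPred_eq] at hk ⊢
        rw [dif_pos hk.1]
        exact ⟨hcjlt _ _, by rw [← hcjv k hk.1 _ (hTlt hx), hTT hx, hk.2]⟩
      · intro k hk l hl h
        simp only [Finset.coe_filter, Finset.mem_range, Set.mem_ofPred_eq] at hk hl
        simp only [dif_pos hk.1, dif_pos hl.1] at h
        have e : ∀ y < 28, hap k y = hap l y := fun y hy => by
          have h1 := hcjv k hk.1 _ (hTlt hy)
          have h2 := hcjv l hl.1 _ (hTlt hy)
          rw [h, ← h2, hTT hy] at h1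
          exact hTinj (hap_lt' hk.1 hy) (hap_lt' hl.1 hy) h1
        exact Data.hap_distinct k hk.1 l hl.1 (e 9 (by norm_num)) (e 3 (by norm_num))
    intro x hx
    refine le_antisymm ?_ (hle x hx)
    have := hle (T x) (hTlt hx)
    rwa [hTT hx] at this
  have hrange : ∀ {x}, x < 27 → x ≠ 0 → T x < 27 ∧ T x ≠ 0 := fun {x} hx hx0 => by
    refine ⟨?_, fun h => ?_⟩
    · have := hTlt (show x < 28 by omega)
      by_contra hh
      have e : T x = T 0 := by rw [hT0]; omega
      exact hx0 (hTinj (by omega) (by norm_num) e)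
    · have e : T x = T 27 := by rw [hT27]; exact h
      have := hTinj (show x < 28 by omega) (by norm_num) e
      omega
  have horb : ∀ o < 3, ∀ x ∈ Data.orbs.getD o [], T x ∈ Data.orbs.getD o [] := by
    intro o ho x hx
    obtain ⟨h1, h2, -⟩ := Data.orbs_spec o ho x hx
    exact Data.orbs_fixCount o ho _ (hrange h1 h2).1 (hrange h1 h2).2
      ((hfc x (by omega)).trans (Data.fixCount_orbs o ho x hx))
  -- the candidate
  set q : ℕ → ℕ := fun o => T (Data.reps.getD o 0) with hq
  have honorb : ∀ x < 27, x ≠ 0 → Data.onOrb gi ri (q (Data.wit.getD x (0, 0)).1) x = T x := by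
    intro x hx hx0
    obtain ⟨ho, hk, hval⟩ := Data.wit_spec x hx hx0
    have hr := Data.reps_mem _ ho
    obtain ⟨h1, -, -⟩ := Data.orbs_spec _ ho _ hr
    have h := hsig _ hk (Data.reps.getD (Data.wit.getD x (0, 0)).1 0) (by omega)
    rw [hval] at h
    exact h.symm
  have hgood : ∀ o < 3, q o ∈ Data.good gi ri o := by
    intro o ho
    rw [Data.good, List.mem_filter, List.all_eq_true]
    refine ⟨horb o ho _ (Data.reps_mem o ho), fun x hx => ?_⟩
    obtain ⟨h1, h2, h3⟩ := Data.orbs_spec o ho x hx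
    obtain ⟨h1', h2', h3'⟩ := Data.orbs_spec o ho _ (horb o ho x hx)
    have e1 := honorb x h1 h2
    rw [h3] at e1
    have e2 := honorb (T x) h1' h2'
    rw [h3', hTT (by omega)] at e2
    rw [e1, e2]
    simp
  set C := Data.store (Data.cand gi ri (q 0) (q 1) (q 2)) with hCdef
  have hcand : ∀ x < 28, Data.cand gi ri (q 0) (q 1) (q 2) x = T x := by
    intro x hx
    rw [Data.cand]
    split_ifs with h0 h27
    · rw [h0, hT0]
    · rw [h27, hT27]
    · have hx' : x < 27 := by omega
      obtain ⟨ho, -, -⟩ := Data.wit_spec x hx' h0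
      rw [← honorb x hx' h0]
      generalize (Data.wit.getD x (0, 0)).1 = o at ho
      interval_cases o <;> rfl
  have hlook : ∀ x < 28, look C x = T x := fun x hx => by
    rw [hCdef, Data.look_store _ (fun y hy => by rw [hcand y hy]; have := hTlt hy; omega) x hx, hcand x hx]
  have hlta : ∀ a < 27, lt a 0 = a ∧ lt a 27 = 27 := fun a ha =>
    ⟨by rw [Data.lt, if_pos (by norm_num), (Data.hm_hi a ha).2.2.2.2], rfl⟩
  have hclosed : Data.closed C = true := by
    rw [Data.closed, List.all_eq_true]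
    intro s' hs'
    rw [List.mem_range] at hs'
    set s := s' + 1 with hs
    have hs27 : s < 27 := by omega
    obtain ⟨hTs, hTs0⟩ := hrange hs27 (by omega)
    have hq27 := (Data.hm_hi _ hTs).2.2.1
    set w := t * ea _ hq27 * t * ea s hs27 * t with hw
    have hword : ∀ x < 28, A w x = Data.word C s x := fun x hx => by
      have b1 := hTlt hx
      have b2 := lt_lt' hs27 b1
      have b3 := hTlt b2
      rw [hw, hAmul _ _ hx, hAmul _ _ b1, hea' s hs27 b1, hAmul _ _ b2, hAmul _ _ b3, hea' _ hq27 b3, Data.word,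
        hlook s (by omega), hlook x hx, hlook _ b2, hlook _ (lt_lt' hq27 b3)]
    have hw27 : A w 27 = 27 := by
      rw [hw, hAmul _ _ (by norm_num), show A t 27 = 0 from hT27, hAmul _ _ (by norm_num), hea' s hs27 (by norm_num),
        (hlta s hs27).1, hAmul _ _ (by omega), hAmul _ _ (hTlt (show s < 28 by omega)), hea' _ hq27 (hTlt (by omega)),
        Data.lt, if_pos hTs, (Data.hm_hi _ hTs).1]
      exact hT0
    have hw0 : A w 0 < 27 := by
      by_contra h
      have h' := hAlt w (show 0 < 28 by norm_num)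
      exact absurd (hAinj w (by norm_num) (by norm_num) ((show A w 0 = 27 by omega).trans hw27.symm) : (0 : ℕ) = 27)
        (by norm_num)
    obtain ⟨hi1, -, hi3, -, -⟩ := Data.hm_hi _ hw0
    obtain ⟨k, hk, hkv⟩ := hstab (ea _ hi3 * w)
      (by rw [hAmul _ _ (by norm_num), hw27, hea' _ hi3 (by norm_num)]; rfl)
      (by rw [hAmul _ _ (by norm_num), hea' _ hi3 (by omega), Data.lt, if_pos hw0, hi1])
    have key : ∀ x < 28, lt (Data.hi (Data.word C s 0)) (Data.word C s x) = hap k x := fun x hx => by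
      rw [← hword 0 (by norm_num), ← hword x hx, ← hea' _ hi3 (hAlt w hx), ← hAmul _ _ hx, hkv x hx]
    rw [Data.closedAt, List.any_eq_true]
    refine ⟨k, List.mem_range.2 hk, ?_⟩
    simp only [Bool.and_eq_true, List.all_eq_true, List.mem_range, beq_iff_eq]
    refine ⟨fun x hx => key x ?_, key⟩
    simp only [List.mem_cons, List.not_mem_nil, or_false] at hx
    omega
  have hknown : Data.known C = true := by
    have h := Data.check_all gi hgiL ri hriL
    simp only [Data.check, List.all_eq_true, Bool.or_eq_true, Bool.not_eq_true'] at h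
    rcases h _ (hgood 0 (by norm_num)) _ (hgood 1 (by norm_num)) _ (hgood 2 (by norm_num)) with h' | h'
    · rw [← hCdef, hclosed] at h'; cases h'
    · rwa [← hCdef] at h'
  simp only [Data.known, List.any_eq_true, List.all_eq_true, List.mem_range, beq_iff_eq] at hknown
  obtain ⟨k0, hk0, hknown⟩ := hknown
  -- the reference involution
  obtain ⟨l0, hl0, hl0v⟩ := Data.hap_inv k0 hk0
  have htau : ∀ x : Fin 28, ((m.act (ek l0 hl0 * t) x : Fin 28) : ℕ) = look Data.tau0 x := fun x => by
    rw [← hA, hAmul _ _ x.2, hek' l0 hl0 (hTlt x.2), ← hlook x x.2, hknown x x.2,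
      (hl0v _ (Data.look_tau0_lt x x.2)).2]
  have hgen : ∀ g, (∃ a < 27, ∀ x : Fin 28, ((m.act g x : Fin 28) : ℕ) = lt a x) ∨
      (∃ k < 16, ∀ x : Fin 28, ((m.act g x : Fin 28) : ℕ) = hap k x) ∨
        (∀ x : Fin 28, ((m.act g x : Fin 28) : ℕ) = look Data.tau0 x) → m.act g ∈ Std := fun g h =>
    Subgroup.subset_closure h
  have hea2 : ∀ a (ha : a < 27), m.act (ea a ha) ∈ Std := fun a ha => hgen _ (Or.inl ⟨a, ha, hea a ha⟩)
  have hek2 : ∀ k (hk : k < 16), m.act (ek k hk) ∈ Std := fun k hk => hgen _ (Or.inr (Or.inl ⟨k, hk, hek k hk⟩))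
  have htmem : m.act t ∈ Std := by
    have h := mul_mem (inv_mem (hek2 l0 hl0)) (hgen _ (Or.inr (Or.inr htau)))
    rwa [← map_inv, ← map_mul, inv_mul_cancel_left] at h
  have hfix : ∀ g, A g 27 = 27 → m.act g ∈ Std := by
    intro g h27
    have h0 : A g 0 < 27 := by
      by_contra h
      have h' := hAlt g (show 0 < 28 by norm_num)
      exact absurd (hAinj g (by norm_num) (by norm_num) ((show A g 0 = 27 by omega).trans h27.symm) : (0 : ℕ) = 27)
        (by norm_num)
    obtain ⟨hi1, -, hi3, -, -⟩ := Data.hm_hi _ h0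
    obtain ⟨k, hk, hkv⟩ := hstab (ea _ hi3 * g)
      (by rw [hAmul _ _ (by norm_num), h27, hea' _ hi3 (by norm_num)]; rfl)
      (by rw [hAmul _ _ (by norm_num), hea' _ hi3 (by omega), Data.lt, if_pos h0, hi1])
    have e : m.act (ea _ hi3 * g) = m.act (ek k hk) := Equiv.ext fun x => Fin.ext (by
      rw [← hA, ← hA, hkv x x.2, hek' k hk x.2])
    have h := mul_mem (inv_mem (hea2 _ hi3)) (e.symm ▸ hek2 k hk : m.act (ea _ hi3 * g) ∈ Std)
    rwa [← map_inv, ← map_mul, inv_mul_cancel_left] at h
  have hrange : m.act.range = Std := by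
    refine le_antisymm ?_ ((closure_le _).2 ?_)
    · rintro _ ⟨g, rfl⟩
      by_cases h27 : A g 27 = 27
      · exact hfix g h27
      have hx : A g 27 < 27 := by have := hAlt g (show 27 < 28 by norm_num); omega
      obtain ⟨hi1, -, hi3, -, -⟩ := Data.hm_hi _ hx
      have h := hfix (t * ea _ hi3 * g) (by
        rw [hAmul _ _ (by norm_num), hAmul _ _ (show A g 27 < 28 by omega), hea' _ hi3 (by omega), Data.lt,
          if_pos hx, hi1]
        exact hT0)
      rw [map_mul, map_mul] at h
      exact (Std.mul_mem_cancel_left (mul_mem htmem (hea2 _ hi3))).1 h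
    · rintro p (⟨a, ha, hp⟩ | ⟨k, hk, hp⟩ | hp)
      · exact ⟨ea a ha, Equiv.ext fun x => Fin.ext ((hea a ha x).trans (hp x).symm)⟩
      · exact ⟨ek k hk, Equiv.ext fun x => Fin.ext ((hek k hk x).trans (hp x).symm)⟩
      · exact ⟨ek l0 hl0 * t, Equiv.ext fun x => Fin.ext ((htau x).trans (hp x).symm)⟩
  exact ⟨(MonoidHom.ofInjective m.inj).trans (MulEquiv.subgroupCongr hrange)⟩

variable [Finite G]

/-- Recognition. -/
theorem nonempty_equiv_std (hcard : Nat.card G = 12096) (hno : NoOrders G) : Nonempty (G ≃* Std) := by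
  haveI : Fact (Nat.Prime 3) := ⟨Nat.prime_three⟩
  haveI := Fintype.ofFinite G
  rcases simple_or_exists hcard hno with h | ⟨M, hn, hsim, hM, hC⟩
  · exact (not_simple hcard hno h).elim
  · haveI := hn
    obtain ⟨m⟩ := exists_model hcard hno M hsim hM hC
    exact m.nonempty_equiv

end CfsgLib.GTwoTwo
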